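import Cfsg.Agent.Lib.MinDegForms.Char

/-!
Characters of the space of Hermitian matrices and the size of a nonempty set of nontrivial ones
stable under congruence.
-/

set_option autoImplicit false

namespace Cfsg.Agent.Lib.MinDegForms

open Matrix Finset

universe u

variable {F : Type u} [Field F] (σ : F ≃+* F)

/-- The matrices `S` with `Sᵀ = σ S`. -/
def Herm (d : ℕ) : AddSubgroup (Matrix (Fin d) (Fin d) F) where
  carrier := {S | ∀ i j, S j i = σ (S i j)}
  zero_mem' := fun i j => by simp
  add_mem' := fun {A B} hA hB i j => by simp [hA i j, hB i j]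
  neg_mem' := fun {A} hA i j => by simp [hA i j]

variable {σ} {d : ℕ}

omit [Field F] in
theorem addChar_map_sum {A : Type*} [AddCommMonoid A] {M : Type*} [CommMonoid M] {ι : Type*}
    (χ : AddChar A M) (s : Finset ι) (f : ι → A) : χ (∑ i ∈ s, f i) = ∏ i ∈ s, χ (f i) := by
  classical
  induction s using Finset.induction_on with
  | empty => simp
  | insert a s ha ih => rw [Finset.sum_insert ha, Finset.prod_insert ha, AddChar.map_add_eq_mul, ih]

theorem herm_transpose (S : Herm σ d) : S.1ᵀ = S.1.map σ := by
  ext i j; exact S.2 i j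

theorem mem_herm {M : Matrix (Fin d) (Fin d) F} (h : Mᵀ = M.map σ) : M ∈ Herm σ d :=
  fun i j => congrFun (congrFun h i) j

variable (hσ : ∀ x, σ (σ x) = x)

/-- `r u w* + σ r w u*`. -/
def two (r : F) (u w : Fin d → F) : Herm σ d :=
  ⟨Matrix.of fun i j => r * u i * σ (w j) + σ r * w i * σ (u j), fun i j => by
    simp only [Matrix.of_apply, map_add, map_mul, hσ]; ring⟩

/-- `S ↦ A S A*`. -/
def congr (A : Matrix (Fin d) (Fin d) F) : Herm σ d →+ Herm σ d where
  toFun S := ⟨A * S.1 * (A.map σ)ᵀ, mem_herm (by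
    rw [transpose_mul, transpose_mul, transpose_transpose, herm_transpose, Matrix.map_mul,
      Matrix.map_mul, ← transpose_map, Matrix.map_map, show (⇑σ ∘ ⇑σ) = id from funext hσ,
      Matrix.map_id, Matrix.mul_assoc])⟩
  map_zero' := Subtype.ext (show A * (0 : Matrix (Fin d) (Fin d) F) * _ = 0 by simp)
  map_add' S T := Subtype.ext (show A * (S.1 + T.1) * _ = A * S.1 * _ + A * T.1 * _ by
    rw [Matrix.mul_add, Matrix.add_mul])

theorem congr_one (S : Herm σ d) : congr hσ 1 S = S :=
  Subtype.ext (show 1 * S.1 * ((1 : Matrix (Fin d) (Fin d) F).map σ)ᵀ = S.1 by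
    rw [Matrix.map_one σ (map_zero σ) (map_one σ), transpose_one, Matrix.one_mul, Matrix.mul_one])

theorem congr_mul (A B : Matrix (Fin d) (Fin d) F) (S : Herm σ d) :
    congr hσ (A * B) S = congr hσ A (congr hσ B S) :=
  Subtype.ext (show A * B * S.1 * ((A * B).map σ)ᵀ = A * (B * S.1 * (B.map σ)ᵀ) * (A.map σ)ᵀ by
    rw [Matrix.map_mul, transpose_mul]; simp only [Matrix.mul_assoc])

theorem congr_two (A : Matrix (Fin d) (Fin d) F) (r : F) (u w : Fin d → F) :
    congr hσ A (two hσ r u w) = two hσ r (A *ᵥ u) (A *ᵥ w) := by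
  refine Subtype.ext ?_
  have e : ∀ (u w : Fin d → F), (Matrix.of fun i j => r * u i * σ (w j) + σ r * w i * σ (u j)) =
      r • vecMulVec u (σ ∘ w) + σ r • vecMulVec w (σ ∘ u) := fun u w => by
    ext i j; simp [vecMulVec_apply, mul_assoc]
  change A * (Matrix.of fun i j => r * u i * σ (w j) + σ r * w i * σ (u j)) * (A.map σ)ᵀ =
    Matrix.of fun i j => r * (A *ᵥ u) i * σ ((A *ᵥ w) j) + σ r * (A *ᵥ w) i * σ ((A *ᵥ u) j)
  rw [e, e, Matrix.mul_add, Matrix.add_mul, Matrix.mul_smul, Matrix.mul_smul, Matrix.smul_mul,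
    Matrix.smul_mul, mul_vecMulVec, mul_vecMulVec, vecMulVec_mul, vecMulVec_mul, vecMul_transpose,
    vecMul_transpose]
  have e2 : ∀ v : Fin d → F, A.map σ *ᵥ (σ ∘ v) = σ ∘ (A *ᵥ v) := fun v => by
    ext i; simp [mulVec, dotProduct, map_sum, map_mul]
  rw [e2, e2]

/-- A character of `F` from one of `Herm`. -/
noncomputable def phi (χ : AddChar (Herm σ d) ℂ) (u w : Fin d → F) : AddChar F ℂ :=
  χ.compAddMonoidHom
    { toFun := fun r => two hσ r u w
      map_zero' := by apply Subtype.ext; ext i j; simp [two]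
      map_add' := fun a b => by
        apply Subtype.ext; ext i j
        simp [two]
        ring }

variable {hσ}

theorem phi_apply (χ : AddChar (Herm σ d) ℂ) (u w : Fin d → F) (r : F) :
    phi hσ χ u w r = χ (two hσ r u w) := rfl

variable [Fintype F]

noncomputable instance : Fintype (Herm σ d) := Fintype.ofFinite _

variable (σ) in
/-- A `σ`-invariant character which is nontrivial at every trace-one element. -/
noncomputable def base (b : F) : AddChar F ℂ :=
  (AddChar.FiniteField.primitiveChar_to_Complex F).compAddMonoidHom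
    { toFun := fun x => b * (x + σ x)
      map_zero' := by simp
      map_add' := fun x y => by simp; ring }

/-- The data used to turn characters into Hermitian forms. -/
structure Pairing (σ : F ≃+* F) where
  /-- the character -/
  ψ : AddChar F ℂ
  /-- an element of trace one -/
  t : F
  invol : ∀ x, σ (σ x) = x
  trace_t : t + σ t = 1
  sigma : ∀ x, ψ (σ x) = ψ x
  ψ_t : ψ t ≠ 1

theorem exists_pairing (hσ : ∀ x, σ (σ x) = x) {t : F} (ht : t + σ t = 1) :
    Nonempty (Pairing σ) := by
  obtain ⟨b, hb⟩ : ∃ b, AddChar.FiniteField.primitiveChar_to_Complex F b ≠ 1 := by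
    by_contra h
    push Not at h
    exact (AddChar.FiniteField.primitiveChar_to_Complex_isPrimitive F) (one_ne_zero (α := F))
      (DFunLike.ext _ _ fun a => by rw [AddChar.mulShift_apply, h, AddChar.one_apply])
  refine ⟨⟨base σ b, t, hσ, ht, fun x => ?_, ?_⟩⟩
  · simp [base, hσ, add_comm]
  · simpa [base, ht] using hb

variable (P : Pairing σ)

theorem Pairing.primitive : P.ψ.IsPrimitive :=
  AddChar.IsPrimitive.of_ne_one fun h => P.ψ_t (by rw [h, AddChar.one_apply])

theorem Pairing.surjective : Function.Surjective (fun b : F => AddChar.mulShift P.ψ b) := by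
  refine ((Fintype.bijective_iff_injective_and_card _).2
    ⟨AddChar.to_mulShift_inj_of_isPrimitive P.primitive, ?_⟩).2
  rw [AddChar.card_eq]

/-- The Hermitian form of a character. -/
noncomputable def Pairing.beta (χ : AddChar (Herm σ d) ℂ) (u w : Fin d → F) : F :=
  (P.surjective (phi P.invol χ u w)).choose

theorem Pairing.beta_spec (χ : AddChar (Herm σ d) ℂ) (u w : Fin d → F) (r : F) :
    P.ψ (P.beta χ u w * r) = χ (two P.invol r u w) := by
  have := DFunLike.congr_fun (P.surjective (phi P.invol χ u w)).choose_spec r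
  exact this

theorem Pairing.beta_eq {χ : AddChar (Herm σ d) ℂ} {u w : Fin d → F} {c : F}
    (h : ∀ r, χ (two P.invol r u w) = P.ψ (c * r)) : P.beta χ u w = c := by
  apply AddChar.to_mulShift_inj_of_isPrimitive P.primitive
  refine DFunLike.ext _ _ fun r => ?_
  rw [AddChar.mulShift_apply, AddChar.mulShift_apply, P.beta_spec, h]

variable (χ : AddChar (Herm σ d) ℂ)

theorem Pairing.beta_add (u u' w : Fin d → F) :
    P.beta χ (u + u') w = P.beta χ u w + P.beta χ u' w := by
  refine P.beta_eq fun r => ?_
  rw [add_mul, AddChar.map_add_eq_mul, P.beta_spec, P.beta_spec, ← AddChar.map_add_eq_mul]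
  congr 1
  apply Subtype.ext; ext i j
  simp [two]
  ring

theorem Pairing.beta_smul (c : F) (u w : Fin d → F) : P.beta χ (c • u) w = c * P.beta χ u w := by
  refine P.beta_eq fun r => ?_
  rw [show c * P.beta χ u w * r = P.beta χ u w * (c * r) by ring, P.beta_spec]
  congr 1
  apply Subtype.ext; ext i j
  simp [two]
  ring

theorem Pairing.beta_comm (u w : Fin d → F) : P.beta χ w u = σ (P.beta χ u w) := by
  refine P.beta_eq fun r => ?_
  rw [← P.sigma, map_mul, P.invol, P.beta_spec]
  congr 1
  apply Subtype.ext; ext i j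
  simp [two, P.invol]
  ring

theorem Pairing.beta_add_right (u w w' : Fin d → F) :
    P.beta χ u (w + w') = P.beta χ u w + P.beta χ u w' := by
  rw [P.beta_comm χ (w + w') u, P.beta_add, map_add, ← P.beta_comm, ← P.beta_comm]

theorem Pairing.beta_smul_right (c : F) (u w : Fin d → F) :
    P.beta χ u (c • w) = σ c * P.beta χ u w := by
  rw [P.beta_comm χ (c • w) u, P.beta_smul, map_mul, ← P.beta_comm]

theorem Pairing.beta_congr (A : Matrix (Fin d) (Fin d) F) (u w : Fin d → F) :
    P.beta (χ.compAddMonoidHom (congr P.invol A)) u w = P.beta χ (A *ᵥ u) (A *ᵥ w) := by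
  refine P.beta_eq fun r => ?_
  rw [AddChar.compAddMonoidHom_apply, congr_two, P.beta_spec]

theorem Pairing.self_fixed (v : Fin d → F) : σ (P.beta χ v v) = P.beta χ v v :=
  (P.beta_comm χ v v).symm

variable {χ}

theorem Pairing.exists_self_ne_zero (hχ : χ ≠ 1) : ∃ v, P.beta χ v v ≠ 0 := by
  classical
  by_contra h
  push Not at h
  have hpol : ∀ u w, P.beta χ u w + σ (P.beta χ u w) = 0 := fun u w => by
    have := h (u + w)
    simp only [P.beta_add, P.beta_add_right, h, zero_add, add_zero] at this
    rwa [P.beta_comm χ u w] at this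
  have hzero : ∀ u w, P.beta χ u w = 0 := fun u w => by
    by_contra hne
    have := hpol ((P.t / P.beta χ u w) • u) w
    rw [P.beta_smul, div_mul_cancel₀ _ hne, P.trace_t] at this
    exact one_ne_zero this
  apply hχ
  refine DFunLike.ext _ _ fun S => ?_
  have hS : S = ∑ i, ∑ j, two P.invol (P.t * S.1 i j) (Pi.single i 1) (Pi.single j 1) := by
    apply Subtype.ext
    ext a b
    simp only [AddSubgroup.val_finsetSum, Matrix.sum_apply, two, Matrix.of_apply, Pi.single_apply,
      apply_ite σ, map_one, map_zero, mul_ite, ite_mul, mul_one, mul_zero, zero_mul, map_mul,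
      Finset.sum_add_distrib, Finset.sum_ite_eq, Finset.sum_ite_eq', Finset.mem_univ, if_true,
      Finset.sum_ite_irrel, Finset.sum_const_zero]
    rw [← S.2 b a, ← add_mul, P.trace_t, one_mul]
  rw [hS, AddChar.one_apply, addChar_map_sum]
  refine Finset.prod_eq_one fun i _ => ?_
  rw [addChar_map_sum]
  refine Finset.prod_eq_one fun j _ => ?_
  rw [← P.beta_spec, hzero, zero_mul, AddChar.map_zero_eq_one]

variable [DecidableEq F]

variable (σ) in
/-- The nonzero norms. -/
def norms : Finset F := (Finset.univ.filter fun b : F => b ≠ 0).image fun b => b * σ b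

theorem mul_le_norms {m : ℕ}
    (hm : ∀ x : F, x ≠ 0 → (Finset.univ.filter fun b : F => b * σ b = x).card ≤ m) :
    Fintype.card F - 1 ≤ m * (norms σ).card := by
  have h := Finset.card_le_mul_card_image (Finset.univ.filter fun b : F => b ≠ 0) (f := fun b => b * σ b)
    m (fun x hx => ?_)
  · simpa [norms, Finset.filter_ne'] using h
  · obtain ⟨b, hb, rfl⟩ := Finset.mem_image.1 hx
    refine le_trans (Finset.card_le_card fun c hc => ?_)
      (hm (b * σ b) (mul_ne_zero (Finset.mem_filter.1 hb).2 (by simpa using (Finset.mem_filter.1 hb).2)))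
    exact Finset.mem_filter.2 ⟨Finset.mem_univ _, (Finset.mem_filter.1 hc).2⟩

/-- Outside the zero vector a nonzero form misses a given norm class often. -/
theorem Pairing.card_value_le {c0 : F} (hc0 : c0 ≠ 0) (hχ : χ ≠ 1) :
    (Finset.univ.filter fun v : Fin d → F => P.beta χ v v / c0 ∈ norms σ).card * Fintype.card F ≤
      (Fintype.card F - 1) * Fintype.card F ^ d := by
  obtain ⟨v0, hd0⟩ := P.exists_self_ne_zero hχ
  set d0 := P.beta χ v0 v0 with hd0def
  have hv0 : v0 ≠ 0 := fun h => hd0 (by
    rw [hd0def, h, ← zero_smul F (0 : Fin d → F), P.beta_smul, zero_mul])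
  set L := Submodule.span F {v0}
  have key : ∀ y : Fin d → F, ∃ s : F, P.beta χ (y + s • v0) (y + s • v0) / c0 ∉ norms σ := by
    intro y
    by_contra hy
    push Not at hy
    set h0 := -(σ (P.beta χ v0 y) / d0)
    set γ := P.beta χ (y + h0 • v0) (y + h0 • v0)
    have hval : ∀ s : F, P.beta χ (y + (h0 + s) • v0) (y + (h0 + s) • v0) = γ + d0 * (s * σ s) := by
      intro s
      have hfix : σ d0 = d0 := P.self_fixed χ v0
      simp only [γ, h0, P.beta_add, P.beta_add_right, P.beta_smul, P.beta_smul_right, map_add,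
        map_neg, map_div₀, P.beta_comm χ v0 y, P.invol, ← hd0def, hfix]
      field_simp
      ring
    have hsub : (insert 0 (norms σ)).image (fun x => (γ + d0 * x) / c0) ⊆ norms σ := by
      intro z hz
      obtain ⟨x, hx, rfl⟩ := Finset.mem_image.1 hz
      obtain ⟨s, rfl⟩ : ∃ s : F, s * σ s = x := by
        rcases Finset.mem_insert.1 hx with rfl | hx
        · exact ⟨0, zero_mul _⟩
        · obtain ⟨s, -, hs⟩ := Finset.mem_image.1 hx
          exact ⟨s, hs⟩
      rw [← hval]
      exact hy _
    have hc := Finset.card_le_card hsub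
    rw [Finset.card_image_of_injective _ (fun a b hab => by
      simpa [div_left_inj' hc0, hd0] using hab), Finset.card_insert_of_notMem (by
      intro h
      obtain ⟨s, hs, hs'⟩ := Finset.mem_image.1 h
      simp [(Finset.mem_filter.1 hs).2] at hs')] at hc
    omega
  choose s hs using key
  set good := Finset.univ.filter fun v : Fin d → F => P.beta χ v v / c0 ∈ norms σ
  have hbad : Fintype.card ((Fin d → F) ⧸ L) ≤ goodᶜ.card := by
    classical
    rw [← Fintype.card_coe]
    refine Fintype.card_le_of_surjective (fun v => Submodule.Quotient.mk v.1) fun z => ?_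
    obtain ⟨y, rfl⟩ := Submodule.Quotient.mk_surjective L z
    refine ⟨⟨y + s y • v0, by simpa [good] using hs y⟩, (Submodule.Quotient.eq L).2 ?_⟩
    simpa using Submodule.smul_mem L _ (Submodule.mem_span_singleton_self v0)
  have hcard := L.card_eq_card_quotient_mul_card
  rw [show Nat.card L = Fintype.card F by
      rw [Module.natCard_eq_pow_finrank (K := F), finrank_span_singleton hv0, pow_one,
        Nat.card_eq_fintype_card], Nat.card_eq_fintype_card, Fintype.card_pi_const,
    Nat.card_eq_fintype_card] at hcard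
  rw [Finset.card_compl, Fintype.card_pi_const] at hbad
  have hle : good.card ≤ Fintype.card F ^ d := by
    simpa using Finset.card_le_univ good
  calc good.card * Fintype.card F
      ≤ (Fintype.card F ^ d - Fintype.card ((Fin d → F) ⧸ L)) * Fintype.card F :=
        Nat.mul_le_mul_right _ (by omega)
    _ = (Fintype.card F - 1) * Fintype.card F ^ d := by
        rw [Nat.sub_mul, Nat.sub_mul, one_mul, mul_comm (Fintype.card ((Fin d → F) ⧸ L)), ← hcard,
          mul_comm]

/-- The matrices allowed to act. -/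
def Allowed (d : ℕ) (A : Matrix (Fin d) (Fin d) F) : Prop := A.det = 1 ∨ (d = 1 ∧ A.det ≠ 0)

end Cfsg.Agent.Lib.MinDegForms
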