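import Cfsg.Agent.Lib.MinDegForms.Herm
import Cfsg.Agent.Lib.Forms.UnitaryStd

/-!
The special unitary group in a basis adapted to a maximal totally isotropic subspace.
-/

set_option autoImplicit false

namespace Cfsg.Agent.Lib.MinDegForms

open Matrix

universe u

variable {F : Type u} [Field F] (d r : ℕ)

/-- Index type of the model. -/
abbrev Idx : Type := (Fin d ⊕ Fin d) ⊕ Fin r

/-- The form matrix of the model. -/
def formJ : Matrix (Idx d r) (Idx d r) F := fromBlocks (fromBlocks 0 1 1 0) 0 0 1

theorem formJ_map (σ : F ≃+* F) : (formJ (F := F) d r).map σ = formJ d r := by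
  simp [formJ, fromBlocks_map, Matrix.map_zero, Matrix.map_one]

theorem formJ_sq : formJ (F := F) d r * formJ d r = 1 := by
  simp [formJ, fromBlocks_multiply, fromBlocks_one]

variable (σ : F ≃+* F)

/-- An isometry of the model. -/
def ModelIso (M : Matrix (Idx d r) (Idx d r) F) : Prop :=
  Mᵀ * formJ d r * M.map σ = formJ d r

variable {d r σ}

theorem ModelIso.mul {M N : Matrix (Idx d r) (Idx d r) F} (hM : ModelIso d r σ M)
    (hN : ModelIso d r σ N) : ModelIso d r σ (M * N) := by
  unfold ModelIso at *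
  rw [transpose_mul, Matrix.map_mul, show Nᵀ * Mᵀ * formJ d r * (M.map σ * N.map σ) =
    Nᵀ * (Mᵀ * formJ d r * M.map σ) * N.map σ by simp only [Matrix.mul_assoc], hM, hN]

theorem exists_baseChange (hσ : ∀ x, σ (σ x) = x) {ω c : F} (hω : ω * σ ω = -1)
    (hc : c + σ c = -1) :
    ∃ P Q : Matrix (Idx d r) (Idx d r) F,
      P * Q = 1 ∧ Pᵀ * P.map σ = formJ d r ∧ Q * P = 1 := by
  let P : Matrix (Idx d r) (Idx d r) F :=
    fromBlocks (fromBlocks 1 ((1 + c) • 1) (ω • 1) ((c * ω) • 1)) 0 0 1
  have hP : Pᵀ * P.map σ = formJ d r := by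
    have hmap : ∀ a : F, ((a • (1 : Matrix (Fin d) (Fin d) F))).map σ = σ a • 1 := fun a => by
      ext i j; by_cases h : i = j <;> simp [h]
    simp only [P, formJ, fromBlocks_transpose, fromBlocks_map, transpose_smul, transpose_one,
      transpose_zero, Matrix.map_zero _ (map_zero σ), Matrix.map_one _ (map_zero σ) (map_one σ),
      hmap, fromBlocks_multiply, Matrix.mul_zero, Matrix.zero_mul, Matrix.mul_one, Matrix.one_mul,
      smul_mul_smul_comm, Matrix.smul_mul, Matrix.mul_smul, smul_smul, add_zero, zero_add, map_mul,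
      map_add, map_one]
    congr 1
    congr 1
    · rw [show (1 : Matrix (Fin d) (Fin d) F) = (1 : F) • 1 from (one_smul _ _).symm, smul_smul,
        ← add_smul, mul_one]
      rw [show (1 : F) + _ = 0 from by linear_combination hω, zero_smul]
    · rw [← add_smul]
      convert one_smul F (1 : Matrix (Fin d) (Fin d) F) using 2
      linear_combination (σ c) * hω
    · rw [← add_smul]
      convert one_smul F (1 : Matrix (Fin d) (Fin d) F) using 2
      linear_combination c * hω
    · rw [← add_smul]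
      convert zero_smul F (1 : Matrix (Fin d) (Fin d) F) using 2
      linear_combination (c * σ c) * hω + hc
  have hP' : (P.map σ)ᵀ * P = formJ d r := by
    have := congrArg (fun X : Matrix (Idx d r) (Idx d r) F => X.map σ) hP
    simp only [Matrix.map_mul, formJ_map, Matrix.map_map, ← transpose_map] at this
    rwa [show (⇑σ ∘ ⇑σ) = id from funext hσ, Matrix.map_id, transpose_map] at this
  have hQP : formJ d r * (P.map σ)ᵀ * P = 1 := by rw [Matrix.mul_assoc, hP', formJ_sq]
  exact ⟨P, _, mul_eq_one_comm.1 hQP, hP, hQP⟩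

variable [Fintype F] {n q : ℕ} (hF : Fintype.card F = q ^ 2)

include hF in
/-- The model maps multiplicatively into `SU_n(q)`, injectively. -/
theorem exists_toSU (e : Idx d r ≃ Fin n) {ω c : F} (hω : ω * Forms.conjQ hF ω = -1)
    (hc : c + Forms.conjQ hF c = -1) :
    ∃ Φ : ∀ M : Matrix (Idx d r) (Idx d r) F,
        ModelIso d r (Forms.conjQ hF) M → M.det = 1 → Cfsg.SU n F q,
      (∀ M N hM hM' hN hN' hMN hMN', Φ (M * N) hMN hMN' = Φ M hM hM' * Φ N hN hN') ∧
      (∀ M N hM hM' hN hN', Φ M hM hM' = Φ N hN hN' → M = N) := by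
  set σ := Forms.conjQ hF
  have hσ : ∀ x, σ (σ x) = x := (Forms.isUnitary_hermForm hF 1).involutive
  obtain ⟨P, Q, hPQ, hP, hQP⟩ := exists_baseChange (d := d) (r := r) hσ hω hc
  have hmem : ∀ M, ModelIso d r σ M → ∀ u v : Fin n → F,
      Cfsg.hermForm n F q (Matrix.reindex e e (P * M * Q) *ᵥ u) (Matrix.reindex e e (P * M * Q) *ᵥ v) =
        Cfsg.hermForm n F q u v := by
    intro M hM u v
    have hX : (P * M * Q)ᵀ * (P * M * Q).map σ = 1 := by
      simp only [transpose_mul, Matrix.map_mul]
      calc Qᵀ * (Mᵀ * Pᵀ) * (P.map σ * M.map σ * Q.map σ)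
          = Qᵀ * (Mᵀ * (Pᵀ * P.map σ) * M.map σ) * Q.map σ := by simp only [Matrix.mul_assoc]
        _ = Qᵀ * (Pᵀ * P.map σ) * Q.map σ := by rw [hP, show _ = _ from hM]
        _ = (P * Q)ᵀ * (P * Q).map σ := by simp only [transpose_mul, Matrix.map_mul, Matrix.mul_assoc]
        _ = 1 := by simp [hPQ, Matrix.map_one]
    have hR : (Matrix.reindex e e (P * M * Q))ᵀ * (Matrix.reindex e e (P * M * Q)).map σ = 1 := by
      rw [reindex_apply, transpose_submatrix, ← submatrix_map, submatrix_mul_equiv, hX,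
        submatrix_one_equiv]
    set X := Matrix.reindex e e (P * M * Q)
    have hform : ∀ a b : Fin n → F, Cfsg.hermForm n F q a b = a ⬝ᵥ (σ ∘ b) := fun a b => rfl
    rw [hform, hform]
    have hcomp : σ ∘ (X *ᵥ v) = X.map σ *ᵥ (σ ∘ v) := by
      ext i; simp [mulVec, dotProduct, map_sum, map_mul]
    rw [hcomp, dotProduct_mulVec, ← mulVec_transpose, mulVec_mulVec]
    have hR' : (X.map σ)ᵀ * X = 1 := by
      have := congrArg Matrix.transpose hR
      simpa [transpose_mul] using this
    rw [hR', one_mulVec]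
  have hdet : ∀ M : Matrix (Idx d r) (Idx d r) F, M.det = 1 →
      (Matrix.reindex e e (P * M * Q)).det = 1 := fun M hM => by
    rw [det_reindex_self, det_mul, det_mul, hM, mul_one, ← det_mul, hPQ, det_one]
  refine ⟨fun M hM hM' => ⟨⟨_, hdet M hM'⟩, hmem M hM⟩, ?_, ?_⟩
  · intro M N hM hM' hN hN' hMN hMN'
    refine Subtype.ext (Subtype.ext ?_)
    change Matrix.reindex e e (P * (M * N) * Q) =
      Matrix.reindex e e (P * M * Q) * Matrix.reindex e e (P * N * Q)
    rw [reindex_apply, reindex_apply, reindex_apply, submatrix_mul_equiv]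
    congr 1
    calc P * (M * N) * Q = P * M * (1 * N * Q) := by simp only [Matrix.one_mul, Matrix.mul_assoc]
      _ = P * M * Q * (P * N * Q) := by rw [← hQP]; simp only [Matrix.mul_assoc]
  · intro M N hM hM' hN hN' h
    have h' : Matrix.reindex e e (P * M * Q) = Matrix.reindex e e (P * N * Q) :=
      congrArg (fun x : Cfsg.SU n F q => ((x.1 : Matrix.SpecialLinearGroup (Fin n) F).1 : Matrix (Fin n) (Fin n) F)) h
    have h'' := congrArg (fun X => Q * X * P) ((Matrix.reindex e e).injective h')
    have hcancel : ∀ X : Matrix (Idx d r) (Idx d r) F, Q * (P * X * Q) * P = X := fun X => by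
      rw [show Q * (P * X * Q) * P = (Q * P) * X * (Q * P) by simp only [Matrix.mul_assoc], hQP,
        Matrix.one_mul, Matrix.mul_one]
    simpa [hcancel] using h''

end Cfsg.Agent.Lib.MinDegForms
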