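import Cfsg.Agent.Lib.MinDegForms.Herm
import Cfsg.Agent.Lib.CrossChar.SL

/-!
A nonempty congruence-stable set of nontrivial characters of Hermitian matrices is large, and the
resulting degree bound.
-/

set_option autoImplicit false

namespace Cfsg.Agent.Lib.MinDegForms

open Matrix Finset

universe u v w

variable {F : Type u} [Field F] {σ : F ≃+* F} {d : ℕ}

theorem exists_allowed_mulVec (hd : 1 ≤ d) {v v' : Fin d → F} (hv : v ≠ 0) (hv' : v' ≠ 0) :
    ∃ A, Allowed d A ∧ A *ᵥ v = v' := by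
  rcases Nat.lt_or_ge d 2 with h | h
  · obtain rfl : d = 1 := by omega
    have h0 : v 0 ≠ 0 := fun e => hv (funext fun i => by rw [Subsingleton.elim i 0]; exact e)
    have h0' : v' 0 ≠ 0 := fun e => hv' (funext fun i => by rw [Subsingleton.elim i 0]; exact e)
    refine ⟨Matrix.diagonal fun _ => v' 0 / v 0, Or.inr ⟨rfl, ?_⟩, ?_⟩
    · simp [h0, h0']
    · funext i
      rw [mulVec_diagonal, Subsingleton.elim i 0, div_mul_cancel₀ _ h0]
  · obtain ⟨A, hA⟩ := CrossChar.sl_transitive (F := F) h v v' hv hv'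
    exact ⟨A, Or.inl A.2, hA⟩

theorem Allowed.det_ne_zero {A : Matrix (Fin d) (Fin d) F} (h : Allowed d A) : A.det ≠ 0 := by
  rcases h with h | h
  · rw [h]; exact one_ne_zero
  · exact h.2

theorem congr_bijective (hσ : ∀ x, σ (σ x) = x) {A : Matrix (Fin d) (Fin d) F} (hA : A.det ≠ 0) :
    Function.Bijective (congr hσ A) := by
  have hu : IsUnit A.det := isUnit_iff_ne_zero.2 hA
  refine Function.bijective_iff_has_inverse.2 ⟨congr hσ A⁻¹, fun S => ?_, fun S => ?_⟩
  · rw [← congr_mul, Matrix.nonsing_inv_mul A hu, congr_one]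
  · rw [← congr_mul, Matrix.mul_nonsing_inv A hu, congr_one]

/-- The matrix with `e₀ ↦ b e₀` and `e_i ↦ s_i (e_i + p_i e₀)`. -/
def shearMat {n : ℕ} (b : F) (p : Fin n → F) : Matrix (Fin (n + 1)) (Fin (n + 1)) F :=
  (1 + vecMulVec (Pi.single 0 1) (Fin.cons 0 p : Fin (n + 1) → F)) *
    Matrix.diagonal (Fin.cons b fun i : Fin n => if (i : ℕ) = 0 then b⁻¹ else 1)

theorem shearMat_allowed {n : ℕ} {b : F} (hb : b ≠ 0) (p : Fin n → F) :
    Allowed (n + 1) (shearMat b p) := by
  have h : (shearMat b p).det = b * ∏ i : Fin n, (if (i : ℕ) = 0 then b⁻¹ else 1) := by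
    rw [shearMat, det_mul, det_diagonal, Fin.prod_univ_succ, vecMulVec_eq Unit,
      det_one_add_replicateCol_mul_replicateRow]
    simp
  rcases n with _ | n
  · exact Or.inr ⟨rfl, by rw [h]; simpa using hb⟩
  · refine Or.inl ?_
    rw [h, Fin.prod_univ_succ]
    simp [hb]

theorem shearMat_single_zero {n : ℕ} (b : F) (p : Fin n → F) :
    shearMat b p *ᵥ Pi.single 0 1 = b • (Pi.single 0 1 : Fin (n + 1) → F) := by
  rw [shearMat, ← mulVec_mulVec, diagonal_mulVec_single, add_mulVec, one_mulVec,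
    vecMulVec_mulVec, dotProduct_single, Fin.cons_zero, Fin.cons_zero]
  simp [← Pi.single_smul']

theorem shearMat_single_succ {n : ℕ} (b : F) (p : Fin n → F) (i : Fin n) :
    shearMat b p *ᵥ Pi.single i.succ 1 = (if (i : ℕ) = 0 then b⁻¹ else 1) •
      ((Pi.single i.succ 1 : Fin (n + 1) → F) + p i • Pi.single 0 1) := by
  rw [shearMat, ← mulVec_mulVec, diagonal_mulVec_single, add_mulVec, one_mulVec,
    vecMulVec_mulVec, dotProduct_single, Fin.cons_succ, Fin.cons_succ]
  funext j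
  simp only [op_smul_eq_smul, Pi.add_apply, Pi.smul_apply, smul_eq_mul, Pi.single_apply]
  split_ifs <;> ring

variable [Fintype F] [DecidableEq F] (P : Pairing σ)

/-- Stable under congruence by allowed matrices. -/
def Stable (T : Finset (AddChar (Herm σ d) ℂ)) : Prop :=
  ∀ χ ∈ T, ∀ A, Allowed d A → χ.compAddMonoidHom (congr P.invol A) ∈ T

theorem card_stable (hd : 1 ≤ d) {m : ℕ}
    (hm : ∀ x : F, x ≠ 0 → (Finset.univ.filter fun b : F => b * σ b = x).card ≤ m)
    (T : Finset (AddChar (Herm σ d) ℂ)) (hne : T.Nonempty) (h1 : ∀ χ ∈ T, χ ≠ 1)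
    (hst : Stable P T) : Fintype.card F ^ d - 1 ≤ m * T.card := by
  obtain ⟨n, rfl⟩ : ∃ n, d = n + 1 := ⟨d - 1, by omega⟩
  obtain ⟨χ₀, hχ₀⟩ := hne
  obtain ⟨v1, hv1⟩ := P.exists_self_ne_zero (h1 χ₀ hχ₀)
  set e0 : Fin (n + 1) → F := Pi.single 0 1
  have he0 : e0 ≠ 0 := by simp [e0]
  have hv10 : v1 ≠ 0 := fun h => hv1 (by
    rw [h, ← zero_smul F (0 : Fin (n + 1) → F), P.beta_smul, zero_mul])
  obtain ⟨A1, hA1, hA1v⟩ := exists_allowed_mulVec hd he0 hv10
  set χ₁ := χ₀.compAddMonoidHom (congr P.invol A1)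
  have hχ₁ : χ₁ ∈ T := hst χ₀ hχ₀ A1 hA1
  set c0 := P.beta χ₁ e0 e0
  have hc0 : c0 ≠ 0 := by simpa [c0, χ₁, P.beta_congr, hA1v] using hv1
  have hnorm : ∀ x : norms σ, ∃ b : F, b ≠ 0 ∧ b * σ b = x.1 := fun x => by
    obtain ⟨b, hb, hbx⟩ := Finset.mem_image.1 x.2
    exact ⟨b, (Finset.mem_filter.1 hb).2, hbx⟩
  choose bx hbx0 hbx using hnorm
  -- members whose value at the first basis vector lies in the norm class
  have hfam : (norms σ).card * Fintype.card F ^ n ≤
      (T.filter fun χ => P.beta χ e0 e0 / c0 ∈ norms σ).card := by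
    have hcard : Fintype.card (norms σ × (Fin n → F)) = (norms σ).card * Fintype.card F ^ n := by
      simp
    rw [← hcard, ← Finset.card_univ]
    refine Finset.card_le_card_of_injOn
      (fun xp => χ₁.compAddMonoidHom (congr P.invol (shearMat (bx xp.1) xp.2)))
      (fun xp _ => Finset.mem_filter.2 ⟨hst _ hχ₁ _ (shearMat_allowed (hbx0 _) _), ?_⟩) ?_
    · rw [P.beta_congr, shearMat_single_zero, P.beta_smul, P.beta_smul_right, ← mul_assoc,
        hbx, mul_div_cancel_right₀ _ hc0]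
      exact xp.1.2
    · rintro ⟨x, p⟩ - ⟨x', p'⟩ - h
      have h0 := congrArg (fun χ => P.beta χ e0 e0) h
      simp only [P.beta_congr, e0, shearMat_single_zero, P.beta_smul, P.beta_smul_right,
        ← mul_assoc, hbx] at h0
      obtain rfl : x = x' := Subtype.ext (mul_right_cancel₀ hc0 h0)
      refine Prod.ext rfl (funext fun i => ?_)
      have h2 := congrArg (fun χ => P.beta χ (Pi.single i.succ 1) e0) h
      simp only [P.beta_congr, e0, shearMat_single_zero, shearMat_single_succ, P.beta_smul,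
        P.beta_smul_right, P.beta_add] at h2
      have hne : (if (i : ℕ) = 0 then (bx x)⁻¹ else 1) ≠ 0 := by
        split_ifs <;> simp [hbx0]
      have hσb : σ (bx x) ≠ 0 := by simpa using hbx0 x
      have := mul_left_cancel₀ hσb (mul_left_cancel₀ hne h2)
      exact mul_right_cancel₀ hc0 (add_left_cancel this)
  have hvec : ∀ v ∈ Finset.univ.erase (0 : Fin (n + 1) → F), (norms σ).card * Fintype.card F ^ n ≤
      (T.filter fun χ => P.beta χ v v / c0 ∈ norms σ).card := by
    intro v hv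
    obtain ⟨A, hA, hAv⟩ := exists_allowed_mulVec hd (Finset.ne_of_mem_erase hv) he0
    refine hfam.trans (Finset.card_le_card_of_injOn (fun χ => χ.compAddMonoidHom (congr P.invol A))
      (fun χ hχ => Finset.mem_filter.2 ⟨hst _ (Finset.mem_filter.1 hχ).1 _ hA, ?_⟩) ?_)
    · rw [P.beta_congr, hAv]; exact (Finset.mem_filter.1 hχ).2
    · exact fun χ _ χ' _ h => AddChar.compAddMonoidHom_injective_left _
        (congr_bijective P.invol hA.det_ne_zero).2 h
  have hle : ∀ χ ∈ T, ((Finset.univ.erase (0 : Fin (n + 1) → F)).filter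
      fun v => P.beta χ v v / c0 ∈ norms σ).card ≤ (Fintype.card F - 1) * Fintype.card F ^ n := by
    intro χ hχ
    refine le_trans (Finset.card_le_card (Finset.filter_subset_filter _ (Finset.erase_subset _ _))) ?_
    refine Nat.le_of_mul_le_mul_right ?_ (Fintype.card_pos (α := F))
    rw [mul_assoc, ← pow_succ]
    exact P.card_value_le hc0 (h1 χ hχ)
  have hdc := Finset.card_nsmul_le_sum _ _ _ hvec
  have hdc2 := Finset.sum_le_card_nsmul _ _ _ hle
  simp only [smul_eq_mul, Finset.card_erase_of_mem (Finset.mem_univ _), Finset.card_univ,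
    Fintype.card_pi_const] at hdc hdc2
  have hswap : ∑ v ∈ Finset.univ.erase (0 : Fin (n + 1) → F),
      (T.filter fun χ => P.beta χ v v / c0 ∈ norms σ).card =
      ∑ χ ∈ T, ((Finset.univ.erase (0 : Fin (n + 1) → F)).filter
        fun v => P.beta χ v v / c0 ∈ norms σ).card := by
    simp only [Finset.card_filter]
    exact Finset.sum_comm
  rw [hswap] at hdc
  have hR := mul_le_norms hm
  have hq : 1 < Fintype.card F := Fintype.one_lt_card
  refine Nat.le_of_mul_le_mul_right (c := (Fintype.card F - 1) * Fintype.card F ^ n) ?_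
    (Nat.mul_pos (by omega) (pow_pos (by omega) n))
  calc (Fintype.card F ^ (n + 1) - 1) * ((Fintype.card F - 1) * Fintype.card F ^ n)
      ≤ (Fintype.card F ^ (n + 1) - 1) * ((m * (norms σ).card) * Fintype.card F ^ n) :=
        Nat.mul_le_mul_left _ (Nat.mul_le_mul_right _ hR)
    _ = m * ((Fintype.card F ^ (n + 1) - 1) * ((norms σ).card * Fintype.card F ^ n)) := by ring
    _ ≤ m * (T.card * ((Fintype.card F - 1) * Fintype.card F ^ n)) :=
        Nat.mul_le_mul_left _ (hdc.trans hdc2)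
    _ = m * T.card * ((Fintype.card F - 1) * Fintype.card F ^ n) := by ring

/-- The degree bound. -/
theorem degree_bound {Γ : Type w} [Group Γ] {V : Type v} [AddCommGroup V] [Module ℂ V]
    [FiniteDimensional ℂ V] (ρ : Representation ℂ Γ V) (hd : 1 ≤ d) {m : ℕ}
    (hm : ∀ x : F, x ≠ 0 → (Finset.univ.filter fun b : F => b * σ b = x).card ≤ m)
    (z : Herm σ d → Γ) (hz : ∀ a b, z (a + b) = z a * z b)
    (hlev : ∀ A, Allowed d A → ∃ g : Γ, ∀ S, g * z S = z (congr P.invol A S) * g)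
    (hne : ∃ S, ρ (z S) ≠ 1) {k : ℕ}
    (hk : ∀ χ : AddChar (Herm σ d) ℂ, χ ≠ 1 → 0 < mult ρ z χ → k ≤ mult ρ z χ) :
    (Fintype.card F ^ d - 1) * k ≤ m * Module.finrank ℂ V := by
  classical
  let T : Finset (AddChar (Herm σ d) ℂ) :=
    Finset.univ.filter fun χ => χ ≠ 1 ∧ 0 < mult ρ z χ
  obtain ⟨S, hS⟩ := hne
  obtain ⟨χ₀, hχ₀⟩ := exists_ne_one hz hS
  have hst : Stable P T := by
    intro χ hχ A hA
    obtain ⟨g, hg⟩ := hlev A hA
    have hbij := congr_bijective P.invol hA.det_ne_zero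
    obtain ⟨-, hχ1, hpos⟩ := Finset.mem_filter.1 hχ
    refine Finset.mem_filter.2 ⟨Finset.mem_univ _, fun h => hχ1 ?_, ?_⟩
    · apply AddChar.compAddMonoidHom_injective_left _ hbij.2
      exact h.trans (DFunLike.ext _ _ fun S => by simp)
    · rwa [mult_eq_of_comm hz (comm_proj hbij hg (χ := χ.compAddMonoidHom (congr P.invol A))
        (χ' := χ) (fun _ => rfl) (fun a => map_neg _ a))]
  have := card_stable P hd hm T ⟨χ₀, Finset.mem_filter.2 ⟨Finset.mem_univ _, hχ₀⟩⟩
    (fun χ hχ => (Finset.mem_filter.1 hχ).2.1) hst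
  have h2 := le_finrank hz T (k := k) (ρ := ρ) fun χ hχ =>
    hk χ (Finset.mem_filter.1 hχ).2.1 (Finset.mem_filter.1 hχ).2.2
  calc (Fintype.card F ^ d - 1) * k ≤ m * T.card * k := Nat.mul_le_mul_right _ this
    _ = m * (T.card * k) := Nat.mul_assoc _ _ _
    _ ≤ m * Module.finrank ℂ V := Nat.mul_le_mul_left _ h2

end Cfsg.Agent.Lib.MinDegForms
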