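import Cfsg.Agent.Lib.MinDegForms.Char
import Cfsg.Agent.Lib.Classical.SympSimple

/-!
The lower bound `(q^n - 1)(q^n - q)/(2(q + 1))` for the symplectic groups over a field of even
order: the characters of the unipotent radical of a point stabiliser which are nontrivial on its
centre correspond to quadratic forms, and the centralised part carries the bound one rank lower.
-/

set_option autoImplicit false

namespace Cfsg.Agent.Lib.MinDegForms.SpEven

open Matrix Module Cfsg.Agent.Lib.Forms Cfsg.Agent.Lib.Classical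

universe u v

attribute [local instance] _root_.Classical.propDecidable

variable {F : Type u} [Field F]

/-- The coordinate space of `Sp_2m`. -/
abbrev Vc (F : Type u) (m : ℕ) : Type u := Fin m ⊕ Fin m → F

/-- Extension by zero. -/
def up {m : ℕ} (w : Vc F m) : Vc F (m + 1) :=
  Sum.elim (Fin.cons 0 (w ∘ Sum.inl)) (Fin.cons 0 (w ∘ Sum.inr))

/-- Removal of the first pair of coordinates. -/
def down {m : ℕ} (x : Vc F (m + 1)) : Vc F m :=
  Sum.elim (fun i => x (.inl i.succ)) (fun i => x (.inr i.succ))

/-- The first basis vector. -/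
def eVec (F : Type u) [Field F] (m : ℕ) : Vc F (m + 1) := Pi.single (.inl 0) 1

/-- Its partner. -/
def fVec (F : Type u) [Field F] (m : ℕ) : Vc F (m + 1) := Pi.single (.inr 0) 1

/-- The standard quadratic form. -/
def theta {m : ℕ} (w : Vc F m) : F := ∑ i, w (.inl i) * w (.inr i)

theorem theta_smul {m : ℕ} (a : F) (w : Vc F m) : theta (a • w) = a * a * theta w := by
  simp [theta, Finset.mul_sum]
  exact Finset.sum_congr rfl fun i _ => by ring

variable [CharP F 2]

theorem stdB_eq {m : ℕ} (x y : Vc F m) :
    stdB m F x y = ∑ i, (x (.inl i) * y (.inr i) + x (.inr i) * y (.inl i)) := by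
  rw [stdB_apply, Cfsg.sympForm]
  simp [Matrix.J, fromBlocks_mulVec, dotProduct, neg_mulVec, CharTwo.neg_eq, Finset.sum_add_distrib,
    Fintype.sum_sum_type]

theorem stdB_symm {m : ℕ} (x y : Vc F m) : stdB m F x y = stdB m F y x := by
  rw [← (stdB_isAlt m (F := F)).neg_eq y x, CharTwo.neg_eq]

theorem theta_add {m : ℕ} (x y : Vc F m) : theta (x + y) = theta x + theta y + stdB m F x y := by
  simp only [theta, stdB_eq, ← Finset.sum_add_distrib]
  exact Finset.sum_congr rfl fun i _ => by simp only [Pi.add_apply]; ring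

variable {m : ℕ}

omit [CharP F 2] in
theorem up_add (v w : Vc F m) : up (v + w) = up v + up w := by
  funext i
  rcases i with i | i <;> refine Fin.cases ?_ (fun j => ?_) i <;> simp [up]

omit [CharP F 2] in
theorem up_smul (a : F) (w : Vc F m) : up (a • w) = a • up w := by
  funext i
  rcases i with i | i <;> refine Fin.cases ?_ (fun j => ?_) i <;> simp [up]

omit [CharP F 2] in
theorem up_zero : up (0 : Vc F m) = 0 := by
  funext i
  rcases i with i | i <;> refine Fin.cases ?_ (fun j => ?_) i <;> simp [up]

omit [CharP F 2] in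
theorem down_eVec : down (eVec F m) = 0 := by
  funext i; rcases i with i | i <;> simp [down, eVec]

omit [CharP F 2] in
theorem down_up (w : Vc F m) : down (up w) = w := by
  funext i; rcases i with i | i <;> simp [up, down]

omit [CharP F 2] in
theorem down_add (x y : Vc F (m + 1)) : down (x + y) = down x + down y := by
  funext i; rcases i with i | i <;> simp [down]

omit [CharP F 2] in
theorem down_smul (a : F) (x : Vc F (m + 1)) : down (a • x) = a • down x := by
  funext i; rcases i with i | i <;> simp [down]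

omit [CharP F 2] in
theorem decomp (x : Vc F (m + 1)) :
    x = x (.inl 0) • eVec F m + x (.inr 0) • fVec F m + up (down x) := by
  funext i
  rcases i with i | i <;> refine Fin.cases ?_ (fun j => ?_) i <;> simp [up, down, eVec, fVec]

theorem B_up (w : Vc F m) (x : Vc F (m + 1)) : stdB (m + 1) F x (up w) = stdB m F (down x) w := by
  simp [stdB_eq, Fin.sum_univ_succ, up, down]

theorem B_e (x : Vc F (m + 1)) : stdB (m + 1) F x (eVec F m) = x (.inr 0) := by
  simp [stdB_eq, Fin.sum_univ_succ, eVec]

theorem B_f (x : Vc F (m + 1)) : stdB (m + 1) F x (fVec F m) = x (.inl 0) := by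
  simp [stdB_eq, Fin.sum_univ_succ, fVec]

/-- An element of the symplectic group from a form-preserving linear map. -/
noncomputable def mkSp {k : ℕ} (L : Vc F k →ₗ[F] Vc F k)
    (h : ∀ x y, stdB k F (L x) (L y) = stdB k F x y) : Matrix.symplecticGroup (Fin k) F :=
  ⟨LinearMap.toMatrix' L, (stdB_iff_matrix k _).1 fun x y => by
    rw [LinearMap.toMatrix'_mulVec, LinearMap.toMatrix'_mulVec, h]⟩

omit [CharP F 2] in
theorem mkSp_mulVec {k : ℕ} (L : Vc F k →ₗ[F] Vc F k)
    (h : ∀ x y, stdB k F (L x) (L y) = stdB k F x y) (x : Vc F k) :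
    (mkSp L h).1 *ᵥ x = L x := LinearMap.toMatrix'_mulVec _ _

/-- The linear map of a radical element. -/
noncomputable def radLin (w : Vc F m) (c : F) : Vc F (m + 1) →ₗ[F] Vc F (m + 1) where
  toFun x := x + (c * stdB (m + 1) F x (eVec F m) + stdB (m + 1) F x (up w)) • eVec F m +
    stdB (m + 1) F x (eVec F m) • up w
  map_add' x y := by simp only [map_add, LinearMap.add_apply]; module
  map_smul' a x := by
    simp only [map_smul, LinearMap.smul_apply, smul_eq_mul, RingHom.id_apply]; module

theorem radLin_iso (w : Vc F m) (c : F) (x y : Vc F (m + 1)) :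
    stdB (m + 1) F (radLin w c x) (radLin w c y) = stdB (m + 1) F x y := by
  have hA := stdB_isAlt (m + 1) (F := F)
  simp only [radLin, LinearMap.coe_mk, AddHom.coe_mk, map_add, map_smul, LinearMap.add_apply,
    LinearMap.smul_apply, smul_eq_mul, hA.self_eq_zero, stdB_symm (eVec F m) y,
    stdB_symm (up w) y, stdB_symm (eVec F m) (up w)]
  have he : stdB (m + 1) F (up w) (eVec F m) = 0 := by simp [B_e, up]
  rw [he]
  have h2 : (2 : F) = 0 := CharTwo.two_eq_zero
  linear_combination (c * stdB (m + 1) F x (eVec F m) * stdB (m + 1) F y (eVec F m) +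
    stdB (m + 1) F y (up w) * stdB (m + 1) F x (eVec F m) +
    stdB (m + 1) F x (up w) * stdB (m + 1) F y (eVec F m)) * h2

/-- The radical element in abelian coordinates. -/
noncomputable def rad (p : Vc F m × F) : Matrix.symplecticGroup (Fin (m + 1)) F :=
  mkSp (radLin p.1 (p.2 + theta p.1)) (radLin_iso _ _)

theorem rad_mulVec (p : Vc F m × F) (x : Vc F (m + 1)) :
    (rad p).1 *ᵥ x = x + ((p.2 + theta p.1) * x (.inr 0) + stdB m F (down x) p.1) • eVec F m +
      x (.inr 0) • up p.1 := by
  rw [rad, mkSp_mulVec, ← B_e x, ← B_up]; rfl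

theorem rad_add (p p' : Vc F m × F) : rad (p + p') = rad p * rad p' := by
  refine sp_ext fun x => ?_
  have hd : ∀ (a b : F) (w : Vc F m), down (x + a • eVec F m + b • up w) = down x + b • w := by
    intro a b w
    rw [down_add, down_add, down_smul, down_smul, down_up]
    have : down (eVec F m) = 0 := by funext i; rcases i with i | i <;> simp [down, eVec]
    simp [this]
  have hr : ∀ (a b : F) (w : Vc F m), (x + a • eVec F m + b • up w) (.inr 0) = x (.inr 0) := by
    intro a b w; simp [eVec, up]
  rw [Submonoid.coe_mul, ← mulVec_mulVec, rad_mulVec, rad_mulVec, rad_mulVec, hd, hr, Prod.fst_add,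
    Prod.snd_add, theta_add, up_add]
  simp only [map_add, map_smul, LinearMap.add_apply, LinearMap.smul_apply, smul_eq_mul,
    stdB_symm p'.1 p.1]
  module

/-- The embedding of the smaller group. -/
noncomputable def embLin (A : Matrix (Fin m ⊕ Fin m) (Fin m ⊕ Fin m) F) :
    Vc F (m + 1) →ₗ[F] Vc F (m + 1) where
  toFun x := x (.inl 0) • eVec F m + x (.inr 0) • fVec F m + up (A *ᵥ down x)
  map_add' x y := by
    simp only [Pi.add_apply, down_add, mulVec_add, up_add]; module
  map_smul' a x := by
    simp only [Pi.smul_apply, smul_eq_mul, RingHom.id_apply, down_smul, mulVec_smul, up_smul]; module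

theorem embLin_coords (A : Matrix (Fin m ⊕ Fin m) (Fin m ⊕ Fin m) F) (x : Vc F (m + 1)) :
    embLin A x (.inl 0) = x (.inl 0) ∧ embLin A x (.inr 0) = x (.inr 0) ∧
      down (embLin A x) = A *ᵥ down x := by
  refine ⟨by simp [embLin, eVec, fVec, up], by simp [embLin, eVec, fVec, up], ?_⟩
  funext i
  rcases i with i | i <;> simp [embLin, eVec, fVec, up, down]

theorem stdB_split (x y : Vc F (m + 1)) : stdB (m + 1) F x y =
    x (.inl 0) * y (.inr 0) + x (.inr 0) * y (.inl 0) + stdB m F (down x) (down y) := by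
  simp [stdB_eq, Fin.sum_univ_succ, down]

/-- The smaller group inside the larger one. -/
noncomputable def emb :
    Matrix.symplecticGroup (Fin m) F →* Matrix.symplecticGroup (Fin (m + 1)) F where
  toFun g := mkSp (embLin g.1) fun x y => by
    obtain ⟨a1, a2, a3⟩ := embLin_coords g.1 x
    obtain ⟨b1, b2, b3⟩ := embLin_coords g.1 y
    rw [stdB_split, stdB_split x y, a1, a2, a3, b1, b2, b3, sp_iso]
  map_one' := sp_ext fun x => by
    rw [mkSp_mulVec, OneMemClass.coe_one, OneMemClass.coe_one, one_mulVec]
    change x (.inl 0) • eVec F m + x (.inr 0) • fVec F m + up ((1 : Matrix _ _ F) *ᵥ down x) = x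
    rw [one_mulVec, ← decomp]
  map_mul' g h := sp_ext fun x => by
    obtain ⟨a1, a2, a3⟩ := embLin_coords h.1 x
    rw [Submonoid.coe_mul _ (mkSp _ _), ← mulVec_mulVec, mkSp_mulVec, mkSp_mulVec, mkSp_mulVec]
    change x (.inl 0) • eVec F m + x (.inr 0) • fVec F m + up ((g * h).1 *ᵥ down x) =
      embLin h.1 x (.inl 0) • eVec F m + embLin h.1 x (.inr 0) • fVec F m +
        up (g.1 *ᵥ down (embLin h.1 x))
    rw [a1, a2, a3, Submonoid.coe_mul, mulVec_mulVec]

theorem emb_mulVec (g : Matrix.symplecticGroup (Fin m) F) (x : Vc F (m + 1)) :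
    (emb g).1 *ᵥ x = x (.inl 0) • eVec F m + x (.inr 0) • fVec F m + up (g.1 *ᵥ down x) :=
  by simp only [emb, MonoidHom.coe_mk, OneHom.coe_mk, mkSp_mulVec]; rfl

theorem emb_spT (w : Vc F m) (a : F) : emb (spT m w a) = spT (m + 1) (up w) a := by
  refine sp_ext fun x => ?_
  rw [emb_mulVec, spT_mulVec, spT_mulVec, B_up, up_add, up_smul]
  conv_rhs => rw [decomp x]
  have : down (x (.inl 0) • eVec F m + x (.inr 0) • fVec F m + up (down x)) = down x := by
    rw [← decomp]
  rw [this]
  abel

theorem emb_rad (g : Matrix.symplecticGroup (Fin m) F) (p : Vc F m × F) :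
    emb g * rad p = rad (g.1 *ᵥ p.1, p.2 + theta p.1 + theta (g.1 *ᵥ p.1)) * emb g := by
  refine sp_ext fun x => ?_
  rw [Submonoid.coe_mul, Submonoid.coe_mul, ← mulVec_mulVec, ← mulVec_mulVec, rad_mulVec, rad_mulVec]
  obtain ⟨a1, a2, a3⟩ := embLin_coords g.1 x
  have e : (emb g).1 *ᵥ x = embLin g.1 x := emb_mulVec g x
  have ee : (emb g).1 *ᵥ eVec F m = eVec F m := by
    rw [emb_mulVec, down_eVec, mulVec_zero, up_zero]
    simp [eVec, fVec]
  have eu : (emb g).1 *ᵥ up p.1 = up (g.1 *ᵥ p.1) := by
    rw [emb_mulVec, down_up]; simp [up]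
  rw [mulVec_add, mulVec_add, mulVec_smul, mulVec_smul, ee, eu, e, a2, a3, sp_iso]
  have : p.2 + theta p.1 + theta (g.1 *ᵥ p.1) + theta (g.1 *ᵥ p.1) = p.2 + theta p.1 := by
    rw [add_assoc, CharTwo.add_self_eq_zero, add_zero]
  simp only [this]

/-- The torus element. -/
noncomputable def torusLin (a : F) : Vc F (m + 1) →ₗ[F] Vc F (m + 1) where
  toFun x := (a * x (.inl 0)) • eVec F m + (a⁻¹ * x (.inr 0)) • fVec F m + up (down x)
  map_add' x y := by simp only [Pi.add_apply, down_add, up_add]; module
  map_smul' c x := by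
    simp only [Pi.smul_apply, smul_eq_mul, RingHom.id_apply, down_smul, up_smul]; module

theorem torusLin_coords (a : F) (x : Vc F (m + 1)) :
    torusLin a x (.inl 0) = a * x (.inl 0) ∧ torusLin a x (.inr 0) = a⁻¹ * x (.inr 0) ∧
      down (torusLin a x) = down x := by
  refine ⟨by simp [torusLin, eVec, fVec, up], by simp [torusLin, eVec, fVec, up], ?_⟩
  funext i
  rcases i with i | i <;> simp [torusLin, eVec, fVec, up, down]

theorem exists_torus {a : F} (ha : a ≠ 0) :
    ∃ g : Matrix.symplecticGroup (Fin (m + 1)) F,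
      ∀ p : Vc F m × F, g * rad p = rad (a • p.1, a * a * p.2) * g := by
  refine ⟨mkSp (torusLin a) fun x y => ?_, fun p => sp_ext fun x => ?_⟩
  · obtain ⟨a1, a2, a3⟩ := torusLin_coords a x
    obtain ⟨b1, b2, b3⟩ := torusLin_coords a y
    rw [stdB_split, stdB_split x y, a1, a2, a3, b1, b2, b3]
    field_simp
  rw [Submonoid.coe_mul, Submonoid.coe_mul, ← mulVec_mulVec, ← mulVec_mulVec, rad_mulVec,
    rad_mulVec, mkSp_mulVec, mkSp_mulVec, map_add, map_add, map_smul, map_smul]
  obtain ⟨a1, a2, a3⟩ := torusLin_coords a x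
  have ee : torusLin a (eVec F m) = a • eVec F m := by
    simp [torusLin, down_eVec, up_zero]
    simp [eVec]
  have eu : torusLin a (up p.1) = up p.1 := by
    simp [torusLin, down_up]; simp [up]
  simp only [ee, eu, a2, a3, theta_smul, up_smul, map_smul, smul_smul, smul_eq_mul]
  congr 2
  · congr 1
    field_simp
  · field_simp

variable [Fintype F]

theorem sqrt_exists (x : F) : ∃ s, s * s = x := by
  obtain ⟨s, hs⟩ := FiniteField.isSquare_of_char_two (ringChar.eq F 2 ▸ rfl) x
  exact ⟨s, hs.symm⟩

theorem sq_injective {x y : F} (h : x * x = y * y) : x = y := by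
  rcases mul_self_eq_mul_self_iff.1 h with h | h
  · exact h
  · rwa [CharTwo.neg_eq] at h

variable (F) in
/-- The Artin–Schreier image. -/
def asImage : AddSubgroup F :=
  AddMonoidHom.range
    { toFun := fun x : F => x * x + x
      map_zero' := by simp
      map_add' := fun x y => by
        linear_combination (x * y) * (CharTwo.two_eq_zero (R := F)) }

theorem mem_asImage {x : F} : x ∈ asImage F ↔ ∃ r, r * r + r = x := Iff.rfl

theorem index_asImage : (asImage F).index = 2 := by
  classical
  let f : F →+ F :=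
    { toFun := fun x : F => x * x + x
      map_zero' := by simp
      map_add' := fun x y => by
        linear_combination (x * y) * (CharTwo.two_eq_zero (R := F)) }
  have hk : Nat.card f.ker = 2 := by
    have : (f.ker : Set F) = {0, 1} := by
      ext x
      simp only [SetLike.mem_coe, AddMonoidHom.mem_ker, Set.mem_insert_iff, Set.mem_singleton_iff]
      change x * x + x = 0 ↔ _
      constructor
      · intro h
        have : x * (x + 1) = 0 := by linear_combination h
        rcases mul_eq_zero.1 this with h0 | h0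
        · exact Or.inl h0
        · exact Or.inr (by rwa [add_eq_zero_iff_eq_neg, CharTwo.neg_eq] at h0)
      · rintro (rfl | rfl) <;> simp [CharTwo.add_self_eq_zero]
    rw [← SetLike.coe_sort_coe, this, Nat.card_coe_set_eq, Set.ncard_pair zero_ne_one]
  have h1 := f.ker.card_mul_index
  rw [AddSubgroup.index_ker, hk] at h1
  have h2 : (asImage F).index * Nat.card (asImage F) = Nat.card F := AddSubgroup.index_mul_card _
  rw [← h1, show Nat.card (asImage F) = Nat.card f.range from rfl] at h2
  exact Nat.eq_of_mul_eq_mul_right Nat.card_pos h2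

variable (F) in
/-- A nontrivial character invariant under squaring. -/
noncomputable def psi2 : AddChar F ℂ where
  toFun x := if x ∈ asImage F then 1 else -1
  map_zero_eq_one' := by rw [if_pos (zero_mem _)]
  map_add_eq_mul' x y := by
    rw [if_congr (AddSubgroup.add_mem_iff_of_index_two index_asImage) rfl rfl]
    by_cases hx : x ∈ asImage F <;> by_cases hy : y ∈ asImage F <;> simp [hx, hy]

theorem psi2_sq (x : F) : psi2 F (x * x) = psi2 F x := by
  have : psi2 F (x * x + x) = 1 := by
    simp only [psi2, AddChar.coe_mk]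
    rw [if_pos (mem_asImage.2 ⟨x, rfl⟩)]
  rw [AddChar.map_add_eq_mul] at this
  have hx : psi2 F x * psi2 F x = 1 := by
    rw [← AddChar.map_add_eq_mul, CharTwo.add_self_eq_zero, AddChar.map_zero_eq_one]
  calc psi2 F (x * x) = psi2 F (x * x) * (psi2 F x * psi2 F x) := by rw [hx, mul_one]
    _ = psi2 F x := by rw [← mul_assoc, this, one_mul]

theorem psi2_or (x : F) : psi2 F x = 1 ∨ psi2 F x = -1 := by
  classical
  simp only [psi2, AddChar.coe_mk]
  split_ifs <;> simp

theorem psi2_eq_one {x : F} : psi2 F x = 1 ↔ ∃ r, r * r + r = x := by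
  classical
  rw [← mem_asImage]
  simp only [psi2, AddChar.coe_mk]
  split_ifs with h <;> norm_num [h]

theorem psi2_primitive : (psi2 F).IsPrimitive := by
  refine AddChar.IsPrimitive.of_ne_one fun h => ?_
  have hne : asImage F ≠ ⊤ := fun e => by
    have := index_asImage (F := F); rw [e, AddSubgroup.index_top] at this; omega
  obtain ⟨x, -, hx⟩ := SetLike.exists_of_lt (lt_top_iff_ne_top.2 hne)
  exact hx (psi2_eq_one.1 (by rw [h, AddChar.one_apply]))

/-- The character attached to a scalar and a vector. -/
noncomputable def chr (d : F) (v : Vc F m) : AddChar (Vc F m × F) ℂ :=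
  (psi2 F).compAddMonoidHom
    { toFun := fun p => d * p.2 + stdB m F v p.1
      map_zero' := by simp
      map_add' := fun p p' => by simp; ring }

theorem chr_apply (d : F) (v : Vc F m) (p : Vc F m × F) :
    chr d v p = psi2 F (d * p.2 + stdB m F v p.1) := rfl

theorem chr_injective {d d' : F} {v v' : Vc F m} (h : chr d v = chr d' v') : d = d' ∧ v = v' := by
  constructor
  · apply AddChar.to_mulShift_inj_of_isPrimitive psi2_primitive
    refine DFunLike.ext _ _ fun u => ?_
    simpa [chr_apply] using DFunLike.congr_fun h ((0 : Vc F m), u)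
  · by_contra hne
    obtain ⟨w, hw⟩ := exists_pairing_one (stdB_nondegenerate m (F := F)) (sub_ne_zero.2 hne)
    obtain ⟨a, ha⟩ : ∃ a, psi2 F a ≠ 1 := by
      by_contra hc
      push Not at hc
      exact psi2_primitive (one_ne_zero (α := F)) (DFunLike.ext _ _ fun a => by
        rw [AddChar.mulShift_apply, hc, AddChar.one_apply])
    apply ha
    have := DFunLike.congr_fun h (a • w, (0 : F))
    rw [chr_apply, chr_apply, mul_zero, mul_zero, zero_add, zero_add] at this
    have e : stdB m F v (a • w) + stdB m F v' (a • w) = a := by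
      rw [← LinearMap.add_apply, ← map_add, ← show v - v' = v + v' from funext fun i => CharTwo.sub_eq_add _ _, map_smul, hw, smul_eq_mul,
        mul_one]
    calc psi2 F a = psi2 F (stdB m F v (a • w)) * psi2 F (stdB m F v' (a • w)) := by
          rw [← AddChar.map_add_eq_mul, e]
      _ = 1 := by
          rw [this, ← AddChar.map_add_eq_mul, CharTwo.add_self_eq_zero, AddChar.map_zero_eq_one]

theorem exists_chr (χ : AddChar (Vc F m × F) ℂ) : ∃ d v, χ = chr d v := by
  classical
  have hb : Function.Bijective (fun p : F × Vc F m => chr p.1 p.2) := by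
    refine (Fintype.bijective_iff_injective_and_card _).2 ⟨fun p p' h => ?_, ?_⟩
    · exact Prod.ext (chr_injective h).1 (chr_injective h).2
    · rw [AddChar.card_eq, Fintype.card_prod, Fintype.card_prod, mul_comm]
  obtain ⟨⟨d, v⟩, h⟩ := hb.2 χ
  exact ⟨d, v, h.symm⟩

/-- The quadratic form attached to a vector. -/
noncomputable def form (v w : Vc F m) : F := theta w + stdB m F v w * stdB m F v w

omit [Fintype F] in
theorem form_add (v x y : Vc F m) : form v (x + y) = form v x + form v y + stdB m F x y := by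
  simp only [form, theta_add, map_add]
  linear_combination (stdB m F v x * stdB m F v y) * (CharTwo.two_eq_zero (R := F))

theorem card_form_even (v : Vc F m) :
    Fintype.card F ^ (2 * m) - Fintype.card F ^ m ≤
      2 * (Finset.univ.filter fun u : Vc F m => psi2 F (form v u) = 1).card := by
  set S : ℂ := ∑ u : Vc F m, psi2 F (form v u)
  have hsum : ∀ h : Vc F m, ∑ u : Vc F m, psi2 F (stdB m F u h) =
      if h = 0 then ((Fintype.card F ^ (2 * m) : ℕ) : ℂ) else 0 := by
    intro h
    split_ifs with hh
    · subst hh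
      simp [two_mul]
    · let φ : AddChar (Vc F m) ℂ := (psi2 F).compAddMonoidHom
        { toFun := fun u => stdB m F u h
          map_zero' := by simp
          map_add' := fun a b => by simp }
      refine AddChar.sum_eq_zero_of_ne_one (ψ := φ) fun hφ => ?_
      obtain ⟨w, hw⟩ := exists_pairing_one (stdB_nondegenerate m (F := F)) hh
      refine psi2_primitive (one_ne_zero (α := F)) (DFunLike.ext _ _ fun a => ?_)
      have := DFunLike.congr_fun hφ (a • w)
      simpa [φ, stdB_symm w h, hw] using this
  have hSS : S * S = ((Fintype.card F ^ (2 * m) : ℕ) : ℂ) := by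
    calc S * S = ∑ u : Vc F m, ∑ h : Vc F m, psi2 F (form v u) * psi2 F (form v (u + h)) := by
          rw [Finset.sum_mul]
          refine Finset.sum_congr rfl fun u _ => ?_
          rw [Finset.mul_sum]
          exact (Equiv.sum_comp (Equiv.addLeft u) (fun x => psi2 F (form v u) * psi2 F (form v x))).symm
      _ = ∑ h : Vc F m, psi2 F (form v h) * ∑ u : Vc F m, psi2 F (stdB m F u h) := by
          rw [Finset.sum_comm]
          refine Finset.sum_congr rfl fun h _ => ?_
          rw [Finset.mul_sum]
          refine Finset.sum_congr rfl fun u _ => ?_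
          rw [← AddChar.map_add_eq_mul, ← AddChar.map_add_eq_mul, form_add]
          congr 1
          linear_combination (form v u) * (CharTwo.two_eq_zero (R := F))
      _ = _ := by
          simp only [hsum, mul_ite, mul_zero, Finset.sum_ite_eq', Finset.mem_univ, if_true]
          rw [show form v (0 : Vc F m) = 0 by simp [form, theta], AddChar.map_zero_eq_one, one_mul]
  have hS : S = (Fintype.card F : ℂ) ^ m ∨ S = -(Fintype.card F : ℂ) ^ m := by
    apply mul_self_eq_mul_self_iff.1
    rw [hSS]
    push_cast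
    ring
  set P := Finset.univ.filter fun u : Vc F m => psi2 F (form v u) = 1
  have hcount : S = 2 * (P.card : ℂ) - ((Fintype.card F ^ (2 * m) : ℕ) : ℂ) := by
    have e : ∀ u, psi2 F (form v u) = 2 * (if psi2 F (form v u) = 1 then 1 else 0) - 1 := fun u => by
      rcases psi2_or (form v u) with h | h <;> rw [h] <;> norm_num
    calc S = ∑ u : Vc F m, (2 * (if psi2 F (form v u) = 1 then (1 : ℂ) else 0) - 1) :=
          Finset.sum_congr rfl fun u _ => e u
      _ = _ := by
          rw [Finset.sum_sub_distrib, ← Finset.mul_sum, Finset.sum_boole, Finset.sum_const,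
            Finset.card_univ, nsmul_eq_mul, mul_one, Fintype.card_fun, Fintype.card_sum,
            Fintype.card_fin, two_mul m]
  rcases hS with h | h
  · have : ((2 * P.card : ℕ) : ℂ) = ((Fintype.card F ^ (2 * m) + Fintype.card F ^ m : ℕ) : ℂ) := by
      push_cast at hcount ⊢
      linear_combination h - hcount
    have := Nat.cast_injective this
    omega
  · have : ((2 * P.card + Fintype.card F ^ m : ℕ) : ℂ) = ((Fintype.card F ^ (2 * m) : ℕ) : ℂ) := by
      push_cast at hcount ⊢
      linear_combination h - hcount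
    have := Nat.cast_injective this
    omega

omit [Fintype F] in
theorem exists_singular [Finite F] (hm : 2 ≤ m) (v : Vc F m) : ∃ w, w ≠ 0 ∧ form v w = 0 := by
  haveI := Fintype.ofFinite F
  set w1 : Vc F m := Pi.single (.inl ⟨0, by omega⟩) 1 with hw1
  set w2 : Vc F m := Pi.single (.inl ⟨1, by omega⟩) 1 with hw2
  have hB : stdB m F w1 w2 = 0 := by simp [stdB_eq, hw1, hw2]
  by_cases h1 : form v w1 = 0
  · exact ⟨w1, by simp [hw1], h1⟩
  obtain ⟨x, hx⟩ := sqrt_exists (form v w2 / form v w1)
  refine ⟨x • w1 + w2, fun h => ?_, ?_⟩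
  · have := congrFun h (.inl ⟨1, by omega⟩)
    simp [hw1, hw2, Pi.single_apply] at this
  · rw [form_add, map_smul, LinearMap.smul_apply, hB, smul_zero, add_zero]
    have e : form v (x • w1) = x * x * form v w1 := by
      simp only [form, theta_smul, map_smul, smul_eq_mul]; ring
    rw [e, hx, div_mul_cancel₀ _ h1, CharTwo.add_self_eq_zero]

/-- The shift of the character of `(1, v)` under a transvection. -/
theorem spT_shift (v w0 : Vc F m) (a k : F) (hk : k * k = a + a * a * form v w0)
    (p : Vc F m × F) :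
    chr 1 (v + k • w0)
        ((spT m w0 a).1 *ᵥ p.1, p.2 + theta p.1 + theta ((spT m w0 a).1 *ᵥ p.1)) = chr 1 v p := by
  set t := stdB m F p.1 w0 with ht
  have hA := stdB_isAlt m (F := F)
  have h1 : theta p.1 + theta ((spT m w0 a).1 *ᵥ p.1) = (a + a * a * theta w0) * (t * t) := by
    rw [spT_mulVec, theta_add, theta_smul, map_smul, smul_eq_mul, ← ht]
    linear_combination (theta p.1) * (CharTwo.two_eq_zero (R := F))
  rw [chr_apply, chr_apply, one_mul, one_mul, add_assoc p.2, h1, spT_mulVec, ← ht]
  simp only [map_add, map_smul, LinearMap.add_apply, LinearMap.smul_apply, smul_eq_mul,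
    hA.self_eq_zero, mul_zero, add_zero, stdB_symm w0 p.1, ← ht]
  set b := stdB m F v w0
  have hab : a + a * a * theta w0 = k * k + (a * b) * (a * b) := by
    rw [hk, form]
    linear_combination (-(a * a * b * b)) * (CharTwo.two_eq_zero (R := F))
  rw [show (a + a * a * theta w0) * (t * t) = (k * t) * (k * t) + (a * b * t) * (a * b * t) by
    rw [hab]; ring]
  simp only [AddChar.map_add_eq_mul, psi2_sq]
  have hsq : ∀ z : F, psi2 F z * psi2 F z = 1 := fun z => by
    rw [← AddChar.map_add_eq_mul, CharTwo.add_self_eq_zero, AddChar.map_zero_eq_one]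
  rw [show psi2 F (a * t * b) = psi2 F (a * b * t) by congr 1; ring]
  calc _ = psi2 F p.2 * psi2 F (stdB m F v p.1) * (psi2 F (k * t) * psi2 F (k * t)) *
        (psi2 F (a * b * t) * psi2 F (a * b * t)) := by ring
    _ = _ := by rw [hsq, hsq, mul_one, mul_one]

/-- The lower bound, in cleared form. -/
theorem degree_bound (n : ℕ) : ∀ {V : Type v} [AddCommGroup V] [Module ℂ V] [FiniteDimensional ℂ V]
    (ρ : Representation ℂ (Matrix.symplecticGroup (Fin n) F) V), (∃ g, ρ g ≠ 1) →
    (Fintype.card F ^ n - 1) * (Fintype.card F ^ n - Fintype.card F) ≤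
      2 * (Fintype.card F + 1) * finrank ℂ V := by
  classical
  induction n with
  | zero => intro V _ _ _ ρ _; simp
  | succ m ih =>
  intro V _ _ _ ρ hρ
  rcases Nat.eq_zero_or_pos m with rfl | hm
  · simp
  set q := Fintype.card F with hq
  set x : Vc F m × F → Matrix.symplecticGroup (Fin (m + 1)) F := rad with hxdef
  have hx : ∀ p p', x (p + p') = x p * x p' := rad_add
  have he0 : eVec F m ≠ 0 := by simp [eVec]
  have hzT : ∀ c, x (0, c) = spT (m + 1) (eVec F m) c := fun c => sp_ext fun y => by
    rw [hxdef, rad_mulVec, spT_mulVec, B_e]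
    simp [theta, up_zero]
  -- a nontrivial central element
  obtain ⟨c0, hc0⟩ : ∃ c, ρ (x (0, c)) ≠ 1 := by
    by_contra hc
    push Not at hc
    obtain ⟨g, hg⟩ := hρ
    apply hg
    have : ρ.ker = ⊤ := sp_eq_top_of_spT (m + 1) _ fun v c => by
      rw [MonoidHom.mem_ker]
      rcases eq_or_ne v 0 with rfl | hv
      · rw [spT_zero, map_one]
      obtain ⟨h, hh⟩ := sp_transitive (m + 1) he0 hv
      rw [← hh, ← spT_conj, map_mul, map_mul, ← hzT, hc, mul_one, ← map_mul, mul_inv_cancel, map_one]
    exact MonoidHom.mem_ker.1 (this ▸ Subgroup.mem_top g)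
  -- invariance of the multiplicities
  have htor : ∀ a : F, a ≠ 0 → ∀ d v, mult ρ x (chr d v) = mult ρ x (chr (d / (a * a)) (a⁻¹ • v)) := by
    intro a ha d v
    obtain ⟨g, hg⟩ := exists_torus (m := m) ha
    refine mult_eq_of_comm hx (comm_proj (T := fun p => (a • p.1, a * a * p.2)) ?_ hg (fun p => ?_)
      (fun p => by simp [smul_neg]))
    · refine Finite.injective_iff_bijective.1 fun p p' h => ?_
      obtain ⟨h1, h2⟩ := Prod.mk.injEq .. ▸ h
      exact Prod.ext (smul_right_injective _ ha h1) (mul_left_cancel₀ (mul_ne_zero ha ha) h2)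
    · rw [chr_apply, chr_apply]
      congr 1
      simp only [map_smul, LinearMap.smul_apply, smul_eq_mul]
      field_simp
  have hmove : ∀ v w0 : Vc F m, ∀ a k : F, k * k = a + a * a * form v w0 →
      ρ (emb (spT m w0 a)) * proj ρ x (chr 1 v) =
        proj ρ x (chr 1 (v + k • w0)) * ρ (emb (spT m w0 a)) := by
    intro v w0 a k hk
    let g := spT m w0 a
    refine comm_proj (T := fun p => (g.1 *ᵥ p.1, p.2 + theta p.1 + theta (g.1 *ᵥ p.1))) ?_
      (emb_rad g) (spT_shift v w0 a k hk) (fun p => ?_)
    · refine Finite.injective_iff_bijective.1 fun p p' h => ?_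
      simp only [Prod.mk.injEq] at h
      have h1 : p.1 = p'.1 := by
        have := congrArg (g⁻¹.1 *ᵥ ·) h.1
        simpa [mulVec_mulVec, ← Submonoid.coe_mul] using this
      refine Prod.ext h1 ?_
      rw [h1] at h
      exact add_right_cancel (add_right_cancel h.2)
    · have hneg : ∀ w : Vc F m, -w = w := fun w => funext fun i => CharTwo.neg_eq _
      have : -p = p := Prod.ext (hneg _) (CharTwo.neg_eq _)
      rw [this]
      exact (Prod.ext (hneg _) (CharTwo.neg_eq _)).symm
  -- a character with scalar one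
  obtain ⟨v1, hv1⟩ : ∃ v, 0 < mult ρ x (chr 1 v) := by
    by_contra hc
    push Not at hc
    apply hc0
    have hall : ∀ χ : AddChar (Vc F m × F) ℂ, ρ (x (0, c0)) * proj ρ x χ = proj ρ x χ := by
      intro χ
      obtain ⟨d, v, rfl⟩ := exists_chr χ
      rcases eq_or_ne d 0 with rfl | hd
      · rw [rho_mul_proj hx, chr_apply]; simp
      · obtain ⟨a, ha⟩ := sqrt_exists d
        have ha0 : a ≠ 0 := fun h => hd (by rw [← ha, h, mul_zero])
        have := htor a ha0 d v
        rw [ha, div_self hd, Nat.le_zero.1 (hc (a⁻¹ • v)), mult, Submodule.finrank_eq_zero,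
          LinearMap.range_eq_bot] at this
        rw [this, mul_zero]
    calc ρ (x (0, c0)) = ρ (x (0, c0)) * ∑ χ : AddChar (Vc F m × F) ℂ, proj ρ x χ := by
          rw [sum_proj hx, mul_one]
      _ = 1 := by rw [Finset.mul_sum, Finset.sum_congr rfl (fun χ _ => hall χ), sum_proj hx]
  -- the orbit
  set O := Finset.univ.filter fun v : Vc F m => 0 < mult ρ x (chr 1 v)
  have hO : q ^ (2 * m) - q ^ m ≤ 2 * O.card := by
    refine (card_form_even v1).trans (Nat.mul_le_mul_left 2 (Finset.card_le_card_of_injOn
      (fun u => v1 + u) (fun u hu => Finset.mem_filter.2 ⟨Finset.mem_univ _, ?_⟩)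
      (fun u _ u' _ h => add_left_cancel h)))
    obtain ⟨r, hr⟩ := psi2_eq_one.1 (Finset.mem_filter.1 hu).2
    obtain ⟨a, ha⟩ : ∃ a, (1 : F) * 1 = a + a * a * form v1 u := by
      rcases eq_or_ne (form v1 u) 0 with h0 | h0
      · exact ⟨1, by rw [h0]; ring⟩
      · refine ⟨r / form v1 u, ?_⟩
        field_simp
        linear_combination -hr
    have := mult_eq_of_comm hx (hmove v1 u a 1 ha)
    rw [one_smul] at this
    rwa [← this]
  -- the fixed space of the centre
  set C : Submodule ℂ V :=
    { carrier := {y | ∀ c, ρ (x (0, c)) y = y}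
      add_mem' := fun ha hb c => by rw [map_add, ha c, hb c]
      zero_mem' := fun c => map_zero _
      smul_mem' := fun a y hy c => by rw [map_smul, hy c] }
  set T0 := (Finset.univ : Finset (Vc F m)).image (chr (0 : F))
  have hkill : ∀ d v, d ≠ 0 → ∀ y ∈ C, proj ρ x (chr d v) y = 0 := by
    intro d v hd y hy
    obtain ⟨c, hc⟩ : ∃ c, psi2 F (d * c) ≠ 1 := by
      by_contra h
      push Not at h
      exact psi2_primitive hd (DFunLike.ext _ _ fun c => by
        rw [AddChar.mulShift_apply, h, AddChar.one_apply])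
    have := LinearMap.congr_fun (proj_mul_rho (ρ := ρ) hx (chr d v) (0, c)) y
    rw [Module.End.mul_apply, hy c, LinearMap.smul_apply, chr_apply] at this
    simp only [map_zero, add_zero] at this
    have h0 : (psi2 F (d * c) - 1) • proj ρ x (chr d v) y = 0 := by
      rw [sub_smul, one_smul, ← this, sub_self]
    exact (smul_eq_zero.1 h0).resolve_left (sub_ne_zero.2 hc)
  have hC : LinearMap.IsProj C (∑ χ ∈ T0, proj ρ x χ) := by
    refine ⟨fun y c => ?_, fun y hy => ?_⟩
    · rw [← Module.End.mul_apply, Finset.mul_sum]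
      congr 1
      refine Finset.sum_congr rfl fun χ hχ => ?_
      obtain ⟨v, -, rfl⟩ := Finset.mem_image.1 hχ
      rw [rho_mul_proj hx, chr_apply]
      simp
    · conv_rhs => rw [show y = (∑ χ : AddChar (Vc F m × F) ℂ, proj ρ x χ) y by rw [sum_proj hx]; rfl]
      rw [LinearMap.sum_apply, LinearMap.sum_apply]
      refine Finset.sum_subset (Finset.subset_univ _) fun χ _ hχ => ?_
      obtain ⟨d, v, rfl⟩ := exists_chr χ
      refine hkill d v (fun h => hχ (Finset.mem_image.2 ⟨v, Finset.mem_univ _, by rw [h]⟩)) y hy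
  have hdimC : finrank ℂ C = ∑ χ ∈ T0, mult ρ x χ := by
    have := hC.trace
    rw [map_sum] at this
    simp only [trace_proj hx] at this
    exact_mod_cast this.symm
  have hdim : finrank ℂ C + (q - 1) * O.card ≤ finrank ℂ V := by
    choose sq hsq using sqrt_exists (F := F)
    have hsq0 : ∀ {d : F}, d ≠ 0 → sq d ≠ 0 := fun {d} hd h => hd (by rw [← hsq d, h, mul_zero])
    set T1 := ((Finset.univ.filter fun d : F => d ≠ 0) ×ˢ O).image
      fun p => chr p.1 (sq p.1 • p.2)
    have hdisj : Disjoint T0 T1 := by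
      rw [Finset.disjoint_left]
      intro χ h0 h1
      obtain ⟨v, -, rfl⟩ := Finset.mem_image.1 h0
      obtain ⟨⟨d, w⟩, hp, h⟩ := Finset.mem_image.1 h1
      exact (Finset.mem_filter.1 (Finset.mem_product.1 hp).1).2 (chr_injective h).1
    have hcard : T1.card = (q - 1) * O.card := by
      rw [Finset.card_image_of_injOn, Finset.card_product, Finset.filter_ne',
        Finset.card_erase_of_mem (Finset.mem_univ _), Finset.card_univ]
      intro p hp p' _ h
      obtain ⟨h1, h2⟩ := chr_injective h
      refine Prod.ext h1 ?_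
      rw [← h1] at h2
      exact smul_right_injective _ (hsq0 (Finset.mem_filter.1 (Finset.mem_product.1 hp).1).2) h2
    have h1 : T1.card ≤ ∑ χ ∈ T1, mult ρ x χ := by
      rw [Finset.card_eq_sum_ones]
      refine Finset.sum_le_sum fun χ hχ => ?_
      obtain ⟨⟨d, w⟩, hp, rfl⟩ := Finset.mem_image.1 hχ
      have hd := (Finset.mem_filter.1 (Finset.mem_product.1 hp).1).2
      have hpos := (Finset.mem_filter.1 (Finset.mem_product.1 hp).2).2
      rw [htor (sq d) (hsq0 hd) d _, hsq, div_self hd, inv_smul_smul₀ (hsq0 hd)]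
      exact hpos
    rw [← sum_mult (ρ := ρ) hx, hdimC, ← hcard]
    refine le_trans (Nat.add_le_add_left h1 _) ?_
    rw [← Finset.sum_union hdisj]
    exact Finset.sum_le_sum_of_subset (Finset.subset_univ _)
  -- the smaller group on the fixed space
  have hinv : ∀ g, ∀ y ∈ C, ρ (emb g) y ∈ C := by
    intro g y hy c
    have e : emb g * x (0, c) = x (0, c) * emb g := by
      rw [hxdef, emb_rad]; simp [theta]
    rw [← Module.End.mul_apply, ← map_mul, ← e, map_mul, Module.End.mul_apply, hy c]
  let τ : Representation ℂ (Matrix.symplecticGroup (Fin m) F) C :=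
    { toFun := fun g => (ρ (emb g)).restrict (hinv g)
      map_one' := by apply LinearMap.ext; intro y; apply Subtype.ext; simp
      map_mul' := fun g h => by apply LinearMap.ext; intro y; apply Subtype.ext; simp }
  have hCbound : (q ^ m - 1) * (q ^ m - q) ≤ 2 * (q + 1) * finrank ℂ C := by
    rcases Nat.lt_or_ge m 2 with hm2 | hm2
    · obtain rfl : m = 1 := by omega
      simp
    refine ih τ ?_
    by_contra hc
    push Not at hc
    obtain ⟨w0, hw0, hw0s⟩ := exists_singular hm2 v1
    have hup : up w0 ≠ 0 := fun h => hw0 (by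
      rw [← down_up w0, h]; funext i; rcases i with i | i <;> simp [down])
    obtain ⟨g, hg⟩ := sp_transitive (m + 1) he0 hup
    set Z' : Submodule ℂ V :=
      { carrier := {y | ∀ a, ρ (emb (spT m w0 a)) y = y}
        add_mem' := fun ha hb a => by rw [map_add, ha a, hb a]
        zero_mem' := fun a => map_zero _
        smul_mem' := fun r y hy a => by rw [map_smul, hy a] }
    have hsub : C ≤ Z' := fun y hy a =>
      congrArg Subtype.val (LinearMap.congr_fun (hc (spT m w0 a)) ⟨y, hy⟩)
    let e : V ≃ₗ[ℂ] V := LinearEquiv.ofLinear (ρ g⁻¹) (ρ g)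
      (by rw [← Module.End.mul_eq_comp, ← map_mul, inv_mul_cancel, map_one]; rfl)
      (by rw [← Module.End.mul_eq_comp, ← map_mul, mul_inv_cancel, map_one]; rfl)
    have hle : Z'.map (e : V →ₗ[ℂ] V) ≤ C := by
      rintro _ ⟨y, hy, rfl⟩ c
      change ρ (x (0, c)) (ρ g⁻¹ y) = ρ g⁻¹ y
      have h : x (0, c) * g⁻¹ = g⁻¹ * emb (spT m w0 c) := by
        rw [emb_spT, ← hg, ← spT_conj, hzT]; group
      rw [← Module.End.mul_apply, ← map_mul, h, map_mul, Module.End.mul_apply, hy c]
    have heq : C = Z' := Submodule.eq_of_le_of_finrank_le hsub (by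
      rw [← LinearEquiv.finrank_map_eq e Z']; exact Submodule.finrank_mono hle)
    have hmne : proj ρ x (chr 1 v1) ≠ 0 := fun h => by
      rw [mult, h, LinearMap.range_zero, finrank_bot] at hv1
      exact lt_irrefl 0 hv1
    obtain ⟨y0, hy0⟩ : ∃ y0, proj ρ x (chr 1 v1) y0 ≠ 0 := by
      by_contra h
      push Not at h
      exact hmne (LinearMap.ext h)
    set y := proj ρ x (chr 1 v1) y0
    set s := ∑ a : F, ρ (emb (spT m w0 a)) y
    have hs : s ∈ Z' := by
      intro b
      rw [map_sum]
      refine Fintype.sum_equiv (Equiv.addLeft b) _ _ fun a => ?_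
      rw [← Module.End.mul_apply, ← map_mul, ← map_mul, spT_add]
      rfl
    rw [← heq] at hs
    have hsy : proj ρ x (chr 1 v1) s = y := by
      rw [map_sum, Finset.sum_eq_single 0]
      · rw [spT_zero_right, map_one, map_one, Module.End.one_apply, ← Module.End.mul_apply,
          proj_mul_proj hx, if_pos rfl]
      · intro a _ ha
        obtain ⟨k, hk⟩ := sqrt_exists a
        have h := hmove v1 w0 a k (by rw [hw0s, mul_zero, add_zero, hk])
        have hne : v1 ≠ v1 + k • w0 := by
          intro h'
          rcases smul_eq_zero.1 (left_eq_add.1 h') with h'' | h''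
          · exact ha (by rw [← hk, h'', mul_zero])
          · exact hw0 h''
        change proj ρ x (chr 1 v1) (ρ (emb (spT m w0 a)) (proj ρ x (chr 1 v1) y0)) = 0
        rw [← Module.End.mul_apply (ρ _), h, Module.End.mul_apply, ← Module.End.mul_apply,
          proj_mul_proj hx, if_neg (fun e => hne (chr_injective e).2), LinearMap.zero_apply]
      · simp
    exact hy0 (hsy.symm.trans (hkill 1 v1 one_ne_zero s hs))
  have hq1 : 1 ≤ q := Fintype.card_pos
  have hp1 : q ≤ q ^ m := Nat.le_self_pow (by omega) q
  obtain ⟨B, hB⟩ : ∃ B, q ^ m = q + B := ⟨q ^ m - q, by omega⟩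
  have e1 : q ^ (2 * m) - q ^ m = (q ^ m - 1) * q ^ m := by
    rw [Nat.sub_mul, one_mul, ← pow_add, two_mul]
  rw [e1] at hO
  obtain ⟨r, hr⟩ : ∃ r, q = r + 1 := ⟨q - 1, by omega⟩
  rw [pow_succ]
  rw [hB, hr] at hO hCbound ⊢
  rw [hr] at hdim
  have hA : r + 1 + B - 1 = r + B := by omega
  have hD : r + 1 + B - (r + 1) = B := by omega
  have hE : (r + 1 + B) * (r + 1) - (r + 1) = (r + B) * (r + 1) := by
    rw [show (r + 1 + B) * (r + 1) = (r + B) * (r + 1) + (r + 1) by ring, Nat.add_sub_cancel]
  rw [hA] at hO hCbound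
  rw [hD] at hCbound
  rw [Nat.add_sub_cancel] at hdim
  have hG : (r + 1 + B) * (r + 1) - 1 ≤ (r + 1 + B) * (r + 1) := Nat.sub_le _ _
  have hH : (r + 1 + B) * (r + 1) - 1 = r * (r + 1 + B) + (r + B) := by
    rw [show (r + 1 + B) * (r + 1) = r * (r + 1 + B) + (r + B) + 1 by ring, Nat.add_sub_cancel]
  rw [hE, hH]
  calc (r * (r + 1 + B) + (r + B)) * ((r + B) * (r + 1))
      = (r + B) * B + (r + 2) * r * ((r + B) * (r + 1 + B)) := by ring
    _ ≤ 2 * (r + 1 + 1) * finrank ℂ C + (r + 2) * r * (2 * O.card) :=
        Nat.add_le_add hCbound (Nat.mul_le_mul_left _ hO)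
    _ = 2 * (r + 1 + 1) * (finrank ℂ C + r * O.card) := by ring
    _ ≤ 2 * (r + 1 + 1) * finrank ℂ V := Nat.mul_le_mul_left _ hdim

end Cfsg.Agent.Lib.MinDegForms.SpEven
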