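import Cfsg.Agent.Lib.MinDegForms.Orbit
import Cfsg.Agent.Lib.Laws.Embeddings
import Cfsg.Agent.Lib.Classical.SympSimple

/-!
The lower bound `(q^n - 1)/2` for the symplectic groups in odd characteristic.
-/

set_option autoImplicit false

namespace Cfsg.Agent.Lib.MinDegForms

open Matrix

universe u v

variable {F : Type u} [Field F] {n : ℕ}

theorem refl_invol : ∀ x : F, (RingEquiv.refl F) (RingEquiv.refl F x) = x := fun _ => rfl

theorem herm_refl_symm (S : Herm (RingEquiv.refl F) n) : S.1ᵀ = S.1 := by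
  rw [herm_transpose]; ext; simp

/-- The Siegel element. -/
def spZ (S : Herm (RingEquiv.refl F) n) : Matrix.symplecticGroup (Fin n) F :=
  ⟨fromBlocks 1 S.1 0 1, by
    rw [SymplecticGroup.mem_iff]
    simp [Matrix.J, fromBlocks_transpose, fromBlocks_multiply, herm_refl_symm S]⟩

theorem spZ_add (a b : Herm (RingEquiv.refl F) n) : spZ (a + b) = spZ a * spZ b := by
  apply Subtype.ext
  change fromBlocks 1 (a.1 + b.1) 0 1 = fromBlocks 1 a.1 0 1 * fromBlocks 1 b.1 0 1
  simp [fromBlocks_multiply, add_comm]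

theorem spZ_conj (A : Matrix (Fin n) (Fin n) F) (hA : A.det ≠ 0) :
    ∃ g : Matrix.symplecticGroup (Fin n) F, ∀ S, g * spZ S = spZ (congr refl_invol A S) * g := by
  let G : GL (Fin n) F := GeneralLinearGroup.mkOfDetNeZero A hA
  refine ⟨Laws.glToSp n F G, fun S => Subtype.ext ?_⟩
  have hG : (G : Matrix (Fin n) (Fin n) F) = A := rfl
  change fromBlocks (G : Matrix (Fin n) (Fin n) F) 0 0
        ((G⁻¹ : GL (Fin n) F) : Matrix (Fin n) (Fin n) F)ᵀ * fromBlocks 1 S.1 0 1 =
      fromBlocks 1 (A * S.1 * (A.map (RingEquiv.refl F))ᵀ) 0 1 *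
        fromBlocks (G : Matrix (Fin n) (Fin n) F) 0 0 ((G⁻¹ : GL (Fin n) F) : Matrix (Fin n) (Fin n) F)ᵀ
  rw [← hG, show (G : Matrix (Fin n) (Fin n) F).map (RingEquiv.refl F) = (G : Matrix _ _ F) from
    Matrix.map_id _]
  simp [fromBlocks_multiply, Matrix.mul_assoc, ← transpose_mul]

theorem spZ_one_not_central (hn : 1 ≤ n) :
    spZ (⟨1, mem_herm (by simp)⟩ : Herm (RingEquiv.refl F) n) ∉
      Subgroup.center (Matrix.symplecticGroup (Fin n) F) := by
  intro h
  have hc := Subgroup.mem_center_iff.1 h ⟨Matrix.J (Fin n) F, SymplecticGroup.J_mem _ _⟩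
  have h1 := congrArg (fun X : Matrix.symplecticGroup (Fin n) F =>
    X.1 (.inl ⟨0, by omega⟩) (.inl ⟨0, by omega⟩)) hc
  simp [spZ, Matrix.J, fromBlocks_multiply] at h1

theorem sp_odd_bound_of_nontrivial [Fintype F] [DecidableEq F] (hn : 2 ≤ n)
    (hodd : Odd (Fintype.card F)) {V : Type v} [AddCommGroup V] [Module ℂ V] [FiniteDimensional ℂ V]
    (ρ : Representation ℂ (Matrix.symplecticGroup (Fin n) F) V) (hρ : ∃ g, ρ g ≠ 1) :
    Fintype.card F ^ n - 1 ≤ 2 * Module.finrank ℂ V := by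
  have h2 : (2 : F) ≠ 0 := Ring.two_ne_zero (by
    intro h
    rw [FiniteField.even_card_iff_char_two] at h
    exact Nat.not_even_iff_odd.2 hodd (Nat.even_iff.2 h))
  obtain ⟨P⟩ := exists_pairing (σ := RingEquiv.refl F) refl_invol (t := (2 : F)⁻¹)
    (by rw [RingEquiv.refl_apply, ← two_mul, mul_inv_cancel₀ h2])
  have hne : ρ (spZ (⟨1, mem_herm (by simp)⟩ : Herm (RingEquiv.refl F) n)) ≠ 1 := by
    intro h
    have h3 : 3 ≤ Fintype.card F := by
      have := Fintype.one_lt_card (α := F)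
      obtain ⟨r, hr⟩ := hodd
      omega
    have hperf := Classical.sp_commutator_eq_top (F := F) n (by
      rcases eq_or_lt_of_le hn with e | e
      · exact Or.inr (Or.inl ⟨e.symm, h3⟩)
      · exact Or.inl e)
    rcases Classical.sp_normal_le_center_or_eq_top n hperf ρ.ker with hle | htop
    · exact spZ_one_not_central (by omega) (hle (MonoidHom.mem_ker.2 h))
    · obtain ⟨g, hg⟩ := hρ
      exact hg (MonoidHom.mem_ker.1 (htop ▸ Subgroup.mem_top g))
  have hm : ∀ x : F, x ≠ 0 →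
      (Finset.univ.filter fun b : F => b * (RingEquiv.refl F) b = x).card ≤ 2 := by
    intro x _
    by_cases h : (Finset.univ.filter fun b : F => b * (RingEquiv.refl F) b = x) = ∅
    · rw [h]; simp
    · obtain ⟨b, hb⟩ := Finset.nonempty_iff_ne_empty.2 h
      refine le_trans (Finset.card_le_card fun c hc => ?_) (Finset.card_le_two (a := b) (b := -b))
      have hb' : b * b = x := (Finset.mem_filter.1 hb).2
      have hc' : c * c = x := (Finset.mem_filter.1 hc).2
      simpa using mul_self_eq_mul_self_iff.1 (hc'.trans hb'.symm)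
  have hb := degree_bound P ρ (by omega) hm spZ spZ_add
    (fun A hA => spZ_conj A hA.det_ne_zero)
    ⟨_, hne⟩ (k := 1) (fun _ _ h => h)
  rwa [mul_one] at hb

theorem sp_odd_bound [Fintype F] [DecidableEq F] (hn : 2 ≤ n) (hodd : Odd (Fintype.card F)) {k : ℕ}
    (ρ : Representation ℂ (Matrix.symplecticGroup (Fin n) F) (Fin k → ℂ)) (hirr : ρ.IsIrreducible)
    (hk : 2 ≤ k) : Fintype.card F ^ n - 1 ≤ 2 * k := by
  have : IsSimpleGroup (Cfsg.PSp n F) := Classical.isSimpleGroup_PSp n hn fun _ => by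
    have := Fintype.one_lt_card (α := F)
    obtain ⟨r, hr⟩ := hodd
    omega
  have := sp_odd_bound_of_nontrivial hn hodd ρ
    ⟨_, rho_ne_one ρ hirr hk (spZ_one_not_central (by omega))⟩
  rwa [Module.finrank_pi, Fintype.card_fin] at this

end Cfsg.Agent.Lib.MinDegForms
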