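import Cfsg.Agent.Lib.MinDegForms.Orbit
import Cfsg.Agent.Lib.MinDegForms.Model
import Cfsg.Agent.Lib.Classical.UnitarySimple

/-!
Lower bounds for the degrees of the special unitary groups.
-/

set_option autoImplicit false

namespace Cfsg.Agent.Lib.MinDegForms

open Matrix

universe u

section Elements

variable {F : Type u} [Field F] {σ : F ≃+* F} {d r : ℕ}

/-- Upper unitriangular element. -/
def modelZ (H : Matrix (Fin d) (Fin d) F) : Matrix (Idx d r) (Idx d r) F :=
  fromBlocks (fromBlocks 1 H 0 1) 0 0 1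

/-- Lower unitriangular element. -/
def modelL (H : Matrix (Fin d) (Fin d) F) : Matrix (Idx d r) (Idx d r) F :=
  fromBlocks (fromBlocks 1 0 H 1) 0 0 1

variable (σ) in
/-- Element of the unipotent radical outside its centre. -/
def modelY (t : F) (W : Matrix (Fin d) (Fin r) F) : Matrix (Idx d r) (Idx d r) F :=
  fromBlocks (fromBlocks 1 (-(t • (W * (W.map σ)ᵀ))) 0 1) (fromRows W 0)
    (fromCols 0 (-(W.map σ)ᵀ)) 1

theorem map_one_sigma {ι : Type} [DecidableEq ι] :
    (1 : Matrix ι ι F).map σ = 1 := Matrix.map_one _ (map_zero σ) (map_one σ)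

theorem modelZ_iso {H : Matrix (Fin d) (Fin d) F} (hH : Hᵀ + H.map σ = 0) :
    ModelIso d r σ (modelZ H) := by
  simp [ModelIso, modelZ, formJ, fromBlocks_transpose, fromBlocks_map, fromBlocks_multiply,
    map_one_sigma, Matrix.map_zero _ (map_zero σ), hH, add_comm (H.map σ)]

theorem modelL_iso {H : Matrix (Fin d) (Fin d) F} (hH : Hᵀ + H.map σ = 0) :
    ModelIso d r σ (modelL H) := by
  simp [ModelIso, modelL, formJ, fromBlocks_transpose, fromBlocks_map, fromBlocks_multiply,
    map_one_sigma, Matrix.map_zero _ (map_zero σ), hH, add_comm (H.map σ)]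

theorem modelY_iso (hσ : ∀ x, σ (σ x) = x) {t : F} (ht : t + σ t = 1)
    (W : Matrix (Fin d) (Fin r) F) : ModelIso d r σ (modelY σ t W) := by
  have hW : (W.map σ)ᵀ.map σ = Wᵀ := by
    ext i j; simp [hσ]
  have hE : (-(t • (W * (W.map σ)ᵀ))).map σ = -(σ t • (W.map σ * Wᵀ)) := by
    ext i j
    simp [Matrix.mul_apply, map_sum, map_mul, hσ, Finset.mul_sum]
  have hneg : (-(W.map σ)ᵀ).map σ = -Wᵀ := by
    ext i j; simp [hσ]
  unfold ModelIso modelY formJ
  simp only [fromBlocks_transpose, fromBlocks_map, map_one_sigma, Matrix.map_zero _ (map_zero σ),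
    transpose_fromRows, transpose_fromCols, fromRows_map, fromCols_map, hE, hneg, transpose_neg,
    transpose_smul, transpose_mul, transpose_transpose, transpose_one, transpose_zero,
    fromBlocks_multiply, fromCols_mul_fromBlocks, fromBlocks_mul_fromRows, fromCols_mul_fromRows,
    fromRows_mul_fromCols, Matrix.mul_one, Matrix.one_mul, Matrix.mul_zero, Matrix.zero_mul,
    add_zero, zero_add]
  congr 1
  · rw [fromBlocks_add]
    congr 1
    · simp
    · simp
    · simp
    · simp only [Matrix.neg_mul, Matrix.mul_neg, neg_neg]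
      rw [← neg_add, ← add_smul, neg_add_eq_zero, add_comm (σ t) t, ht, one_smul]
  · ext i j
    rcases i with i | i <;> simp [Matrix.add_apply]
  · ext i j
    rcases j with j | j <;> simp [Matrix.add_apply]

theorem modelY_det (t : F) (W : Matrix (Fin d) (Fin r) F) :
    (modelY σ t W).det = 1 := by
  rw [modelY, det_fromBlocks_one₂₂, fromRows_mul_fromCols, sub_eq_add_neg, fromBlocks_neg,
    fromBlocks_add]
  simp

theorem modelZ_det (H : Matrix (Fin d) (Fin d) F) : (modelZ (r := r) H).det = 1 := by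
  simp [modelZ]

theorem modelL_det (H : Matrix (Fin d) (Fin d) F) : (modelL (r := r) H).det = 1 := by
  simp [modelL]

theorem modelY_comm (t : F) (W W' : Matrix (Fin d) (Fin r) F) :
    modelY σ t W * modelY σ t W' =
      modelZ (W' * (W.map σ)ᵀ - W * (W'.map σ)ᵀ) * (modelY σ t W' * modelY σ t W) := by
  simp only [modelY, modelZ, fromBlocks_multiply, fromCols_mul_fromBlocks, fromBlocks_mul_fromRows,
    fromCols_mul_fromRows, fromRows_mul_fromCols, Matrix.mul_one, Matrix.one_mul, Matrix.mul_zero,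
    Matrix.zero_mul, add_zero, zero_add]
  congr 1
  · rw [fromBlocks_add, fromBlocks_add, fromBlocks_multiply]
    simp only [Matrix.mul_one, Matrix.one_mul, Matrix.mul_zero, Matrix.zero_mul, add_zero,
      zero_add, Matrix.mul_neg, Matrix.neg_mul]
    congr 1
    abel
  · ext i j
    rcases i with i | i <;>
      simp [Matrix.add_apply, add_comm, fromBlocks_mul_fromRows, Matrix.mul_add]
  · ext i j
    rcases j with j | j <;> simp [Matrix.add_apply, add_comm]

theorem modelY_comm_Z (t : F) (W : Matrix (Fin d) (Fin r) F) (H : Matrix (Fin d) (Fin d) F) :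
    modelY σ t W * modelZ H = modelZ H * modelY σ t W := by
  simp only [modelY, modelZ, fromBlocks_multiply, fromCols_mul_fromBlocks, fromBlocks_mul_fromRows,
    fromCols_mul_fromRows, fromRows_mul_fromCols, Matrix.mul_one, Matrix.one_mul, Matrix.mul_zero,
    Matrix.zero_mul, add_zero, zero_add]
  simp [add_comm]

/-- The Levi element. -/
noncomputable def modelLev (σ : F ≃+* F) (r : ℕ) (A : Matrix (Fin d) (Fin d) F) (μ : F) :
    Matrix (Idx d r) (Idx d r) F :=
  fromBlocks (fromBlocks A 0 0 ((A⁻¹)ᵀ.map σ)) 0 0 (μ • 1)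

theorem modelLev_conj (hσ : ∀ x, σ (σ x) = x) {A : Matrix (Fin d) (Fin d) F} (hA : IsUnit A.det)
    (μ : F) (H : Matrix (Fin d) (Fin d) F) :
    modelLev σ r A μ * modelZ H = modelZ (A * H * (A.map σ)ᵀ) * modelLev σ r A μ := by
  have h : (A.map σ)ᵀ * (A⁻¹)ᵀ.map σ = 1 := by
    rw [← transpose_map, ← Matrix.map_mul, ← transpose_mul, Matrix.nonsing_inv_mul A hA,
      transpose_one, map_one_sigma]
  simp [modelLev, modelZ, fromBlocks_multiply, Matrix.mul_assoc, h]

theorem modelLev_iso (hσ : ∀ x, σ (σ x) = x) {A : Matrix (Fin d) (Fin d) F} (hA : IsUnit A.det)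
    {μ : F} (hμ : μ * σ μ = 1) : ModelIso d r σ (modelLev σ r A μ) := by
  have h1 : Aᵀ * ((A⁻¹)ᵀ.map σ).map σ = 1 := by
    rw [Matrix.map_map, show (⇑σ ∘ ⇑σ) = id from funext hσ, Matrix.map_id, ← transpose_mul,
      Matrix.nonsing_inv_mul A hA, transpose_one]
  have h2 : ((A⁻¹)ᵀ.map σ)ᵀ * A.map σ = 1 := by
    rw [← transpose_map, transpose_transpose, ← Matrix.map_mul, Matrix.nonsing_inv_mul A hA,
      map_one_sigma]
  have h3 : ((μ • (1 : Matrix (Fin r) (Fin r) F)).map σ) = σ μ • 1 := by
    ext i j; by_cases h : i = j <;> simp [h]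
  unfold ModelIso modelLev formJ
  simp only [fromBlocks_transpose, fromBlocks_map, h3, transpose_smul, transpose_one,
    transpose_zero, Matrix.map_zero _ (map_zero σ), fromBlocks_multiply, Matrix.mul_zero,
    Matrix.zero_mul, Matrix.mul_one, Matrix.one_mul, add_zero, zero_add, Matrix.smul_mul,
    Matrix.mul_smul, smul_smul, smul_zero, h1, h2, mul_comm (σ μ), hμ, one_smul]

theorem modelLev_det {A : Matrix (Fin d) (Fin d) F} (μ : F) :
    (modelLev σ r A μ).det = A.det * σ (A.det)⁻¹ * μ ^ r := by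
  rw [modelLev, det_fromBlocks_zero₂₁, det_fromBlocks_zero₂₁, det_smul, det_one,
    show ((A⁻¹)ᵀ.map σ) = σ.toRingHom.mapMatrix (A⁻¹)ᵀ from rfl, ← RingHom.map_det, det_transpose,
    Matrix.det_nonsing_inv]
  simp

end Elements

variable {F : Type u} [Field F] [Fintype F] [DecidableEq F] {q : ℕ}

theorem norm_fibre_le (hF : Fintype.card F = q ^ 2) (x : F) :
    (Finset.univ.filter fun b : F => b * Forms.conjQ hF b = x).card ≤ q + 1 := by
  refine le_trans (Finset.card_le_card fun b hb => ?_)
    ((Multiset.toFinset_card_le _).trans (Polynomial.card_nthRoots (q + 1) x))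
  rw [Multiset.mem_toFinset, Polynomial.mem_nthRoots (by omega), pow_succ']
  exact (Finset.mem_filter.1 hb).2

/-- The bound, with the multiplicity supplied by the middle block. -/
theorem su_bound (hF : Fintype.card F = q ^ 2) (d r n : ℕ) (hn : 2 * d + r = n) (hr : r ≤ 1)
    (hn3 : 3 ≤ n) (h32 : ¬ (n = 3 ∧ q = 2)) {k : ℕ}
    (ρ : Representation ℂ (Cfsg.SU n F q) (Fin k → ℂ)) (hirr : ρ.IsIrreducible) (hk : 2 ≤ k) :
    (q ^ (2 * d) - 1) * q ^ r ≤ (q + 1) * k := by
  classical
  have hU := Forms.isUnitary_hermForm hF 1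
  set σ := Forms.conjQ hF with hσdef
  have hσ : ∀ x, σ (σ x) = x := hU.involutive
  obtain ⟨t, ht⟩ := Forms.exists_trace_eq hU (a := (1 : F)) (map_one σ)
  obtain ⟨c, hc⟩ := Forms.exists_trace_eq hU (a := (-1 : F)) (by rw [map_neg, map_one])
  obtain ⟨ω, hω⟩ := Forms.exists_norm_eq hU (a := (-1 : F)) (by rw [map_neg, map_one])
  obtain ⟨θ, hθ⟩ := UnitaryConj.exists_moved hF
  set κ := θ - σ θ with hκdef
  have hκ0 : κ ≠ 0 := sub_ne_zero.2 (fun h => hθ h.symm)
  have hκ : σ κ = -κ := by rw [hκdef, map_sub, hσ]; ring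
  obtain ⟨P⟩ := exists_pairing hσ ht
  let e : Idx d r ≃ Fin n :=
    (Equiv.sumCongr finSumFinEquiv (Equiv.refl _)).trans (finSumFinEquiv.trans (finCongr (by omega)))
  obtain ⟨Φ, hΦmul, hΦinj⟩ := exists_toSU hF e hω hc
  have hskew : ∀ S : Herm σ d, (κ • S.1)ᵀ + (κ • S.1).map σ = 0 := fun S => by
    ext i j
    simp [hκ, S.2 i j]
  let z : Herm σ d → Cfsg.SU n F q := fun S =>
    Φ (modelZ (κ • S.1)) (modelZ_iso (hskew S)) (modelZ_det _)
  have hcongrΦ : ∀ M N hM hM' hN hN', M = N → Φ M hM hM' = Φ N hN hN' := by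
    intro M N hM hM' hN hN' h; subst h; rfl
  have hmm : ∀ {M N M' N' : Matrix (Idx d r) (Idx d r) F} (hM : ModelIso d r σ M) (hM' : M.det = 1)
      (hN : ModelIso d r σ N) (hN' : N.det = 1) (hA : ModelIso d r σ M') (hA' : M'.det = 1)
      (hB : ModelIso d r σ N') (hB' : N'.det = 1), M * N = M' * N' →
      Φ M hM hM' * Φ N hN hN' = Φ M' hA hA' * Φ N' hB hB' := by
    intro M N M' N' hM hM' hN hN' hA hA' hB hB' h
    rw [← hΦmul M N hM hM' hN hN' (hM.mul hN) (by rw [det_mul, hM', hN', one_mul]),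
      ← hΦmul M' N' hA hA' hB hB' (hA.mul hB) (by rw [det_mul, hA', hB', one_mul])]
    exact hcongrΦ _ _ _ _ _ _ h
  have hz : ∀ a b, z (a + b) = z a * z b := fun a b => by
    rw [← hΦmul _ _ _ _ _ _ ((modelZ_iso (hskew a)).mul (modelZ_iso (hskew b)))
      (by rw [det_mul, modelZ_det, modelZ_det, one_mul])]
    refine hcongrΦ _ _ _ _ _ _ ?_
    simp [modelZ, fromBlocks_multiply, add_comm]
  have hlev : ∀ A, Allowed d A → ∃ g, ∀ S, g * z S = z (congr P.invol A S) * g := by
    intro A hA
    have hdet : IsUnit A.det := isUnit_iff_ne_zero.2 (by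
      rcases hA with h | h
      · rw [h]; exact one_ne_zero
      · exact h.2)
    set μ := σ A.det / A.det with hμdef
    have hμ : μ * σ μ = 1 := by
      rw [hμdef, map_div₀, hσ, div_mul_div_comm, mul_comm (σ A.det), div_self]
      exact mul_ne_zero hdet.ne_zero (by simpa using hdet.ne_zero)
    have hdet1 : (modelLev σ r A μ).det = 1 := by
      rw [modelLev_det]
      rcases hA with h | ⟨h, -⟩
      · simp [hμdef, h]
      · obtain rfl : r = 1 := by omega
        rw [hμdef, map_inv₀, pow_one]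
        have h0 := hdet.ne_zero
        have : σ A.det ≠ 0 := by simpa using h0
        field_simp
    refine ⟨Φ (modelLev σ r A μ) (modelLev_iso hσ hdet hμ) hdet1, fun S => hmm _ _ _ _ _ _ _ _ ?_⟩
    rw [modelLev_conj hσ hdet]
    congr 2
    change A * (κ • S.1) * _ = κ • (A * S.1 * _)
    rw [Matrix.mul_smul, Matrix.smul_mul]
  let one' : Herm σ d := ⟨1, mem_herm (by rw [transpose_one, map_one_sigma])⟩
  have hd : 1 ≤ d := by omega
  have : IsSimpleGroup (Cfsg.SU n F q ⧸ Subgroup.center (Cfsg.SU n F q)) :=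
    Classical.UnitarySimple.isSimpleGroup_PSU hF hn3 h32
  have hnc : z one' ∉ Subgroup.center (Cfsg.SU n F q) := by
    intro h
    have hc' := Subgroup.mem_center_iff.1 h
      (Φ (modelL (κ • one'.1)) (modelL_iso (hskew one')) (modelL_det _))
    rw [← hΦmul _ _ _ _ _ _ ((modelL_iso (hskew one')).mul (modelZ_iso (hskew one')))
        (by rw [det_mul, modelL_det, modelZ_det, one_mul]),
      ← hΦmul _ _ _ _ _ _ ((modelZ_iso (hskew one')).mul (modelL_iso (hskew one')))
        (by rw [det_mul, modelL_det, modelZ_det, one_mul])] at hc'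
    have h2 := congrFun (congrFun (hΦinj _ _ _ _ _ _ hc') (.inl (.inl ⟨0, hd⟩))) (.inl (.inl ⟨0, hd⟩))
    simp [one', modelL, modelZ, fromBlocks_multiply, hκ0] at h2
  have hkm : ∀ χ : AddChar (Herm σ d) ℂ, χ ≠ 1 → 0 < mult ρ z χ → q ^ r ≤ mult ρ z χ := by
    intro χ hχ hpos
    rcases Nat.eq_zero_or_pos r with rfl | hr0
    · rw [pow_zero]; exact hpos
    obtain rfl : r = 1 := by omega
    obtain ⟨v, hv⟩ := P.exists_self_ne_zero hχ
    let W : F → Matrix (Fin d) (Fin 1) F := fun s => Matrix.of fun i _ => s * v i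
    let y : F → Cfsg.SU n F q := fun s =>
      Φ (modelY σ t (W s)) (modelY_iso hσ ht _) (modelY_det _ _)
    have hyz : ∀ s S, y s * z S = z S * y s := fun s S =>
      hmm _ _ _ _ _ _ _ _ (modelY_comm_Z t (W s) _)
    -- the commutator of two such elements
    let rr : F → F → F := fun s s' => (s' * σ s - s * σ s') / κ
    have hrr : ∀ s s', σ (rr s s') = rr s s' := fun s s' => by
      simp only [rr, map_div₀, map_sub, map_mul, hσ, hκ]
      rw [div_neg, ← neg_div]
      ring
    have hS : ∀ s s', y s * y s' = z (two P.invol (P.t * rr s s') v v) * (y s' * y s) := by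
      intro s s'
      have hH : ((W s') * ((W s).map σ)ᵀ - (W s) * ((W s').map σ)ᵀ) =
          κ • (two P.invol (P.t * rr s s') v v).1 := by
        ext i j
        simp only [W, two, Matrix.sub_apply, Matrix.mul_apply, Fin.sum_univ_one, Matrix.of_apply, transpose_apply, map_apply, map_mul,
          Matrix.smul_apply, smul_eq_mul, hrr]
        rw [← add_mul, ← add_mul, ← add_mul, P.trace_t, one_mul]
        simp only [rr]
        field_simp
        try ring
      simp only [y, z]
      have hY2 := (modelY_iso (d := d) (r := 1) hσ ht (W s')).mul (modelY_iso hσ ht (W s))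
      have hY2' : (modelY σ t (W s') * modelY σ t (W s)).det = 1 := by
        rw [det_mul, modelY_det, modelY_det, one_mul]
      rw [← hΦmul _ _ (modelY_iso hσ ht (W s')) _ (modelY_iso hσ ht (W s)) _ hY2 hY2']
      refine hmm _ _ _ _ _ _ _ _ ?_
      rw [modelY_comm, hH]
    have hcard := card_le_mult_sq (ρ := ρ) hz y χ hpos hyz fun s s' hss' => by
      set δ := s' - s
      have hδ : δ * σ δ ≠ 0 := mul_ne_zero (sub_ne_zero.2 hss'.symm)
        ((map_ne_zero σ).2 (sub_ne_zero.2 hss'.symm))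
      set a := P.beta χ v v
      have ha : σ a = a := P.self_fixed χ v
      set kk := κ / (δ * σ δ * a)
      have hkk : σ kk = -kk := by
        simp only [kk, map_div₀, map_mul, hσ, ha, hκ]
        rw [mul_comm (σ δ) δ, neg_div]
      set u := -(P.t * kk) * δ with hu
      have hval : rr u s' - rr u s = a⁻¹ := by
        have e1 : rr u s' - rr u s = (δ * σ u - u * σ δ) / κ := by
          simp only [rr, δ, map_sub]; ring
        rw [e1, hu, map_mul, map_neg, map_mul, hkk, show δ * (-(σ P.t * -kk) * σ δ) -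
          -(P.t * kk) * δ * σ δ = (P.t + σ P.t) * (kk * (δ * σ δ)) by ring, P.trace_t, one_mul]
        simp only [kk]
        field_simp
        rw [div_self hδ]
      have hg : y u * ((y s)⁻¹ * y s') * (y u)⁻¹ =
          z (two P.invol (P.t * a⁻¹) v v) * ((y s)⁻¹ * y s') := by
        have e1 := hS u s
        have e2 := hS u s'
        have hzc : ∀ S, (y s)⁻¹ * z S = z S * (y s)⁻¹ := fun S => by
          rw [inv_mul_eq_iff_eq_mul, ← mul_assoc, hyz, mul_inv_cancel_right]
        have e3 : y u * (y s)⁻¹ = z (-(two P.invol (P.t * rr u s) v v)) * ((y s)⁻¹ * y u) := by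
          have hneg : z (-(two P.invol (P.t * rr u s) v v)) = (z (two P.invol (P.t * rr u s) v v))⁻¹ :=
            eq_inv_of_mul_eq_one_left (by rw [← hz, neg_add_cancel, x_zero hz])
          rw [hneg, eq_inv_mul_iff_mul_eq, ← mul_assoc, mul_inv_eq_iff_eq_mul, mul_assoc (y s)⁻¹,
            eq_inv_mul_iff_mul_eq, ← mul_assoc, hyz, mul_assoc, ← e1]
        rw [← mul_assoc (y u), e3, mul_assoc, mul_assoc, mul_assoc]
        rw [show y u * (y s' * (y u)⁻¹) = z (two P.invol (P.t * rr u s') v v) * y s' by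
          rw [← mul_assoc, e2]; group]
        rw [← mul_assoc (y s)⁻¹, hzc, mul_assoc, ← mul_assoc, ← hz]
        congr 2
        rw [← hval]
        apply Subtype.ext; ext i j
        simp [two]
        ring
      set g := (y s)⁻¹ * y s'
      have htr : LinearMap.trace ℂ (Fin k → ℂ) (ρ (y u * g * (y u)⁻¹) * proj ρ z χ) =
          LinearMap.trace ℂ (Fin k → ℂ) (ρ g * proj ρ z χ) := by
        have hc1 : ∀ S, (y u)⁻¹ * z S = z S * (y u)⁻¹ := fun S => by
          rw [inv_mul_eq_iff_eq_mul, ← mul_assoc, hyz, mul_inv_cancel_right]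
        rw [map_mul ρ, map_mul ρ, mul_assoc, comm_proj_self hc1, ← mul_assoc, LinearMap.trace_mul_comm,
          ← mul_assoc, ← mul_assoc, ← map_mul, inv_mul_cancel, map_one, one_mul]
      have hcv : χ (two P.invol (P.t * a⁻¹) v v) ≠ 1 := by
        rw [← P.beta_spec, mul_left_comm, mul_inv_cancel₀ hv, mul_one]
        exact P.ψ_t
      rw [hg, map_mul ρ, mul_assoc] at htr
      have hgz : ∀ S, g * z S = z S * g := fun S => by
        have hzc : (y s)⁻¹ * z S = z S * (y s)⁻¹ := by
          rw [inv_mul_eq_iff_eq_mul, ← mul_assoc, hyz, mul_inv_cancel_right]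
        simp only [g]
        rw [mul_assoc, hyz, ← mul_assoc, hzc, mul_assoc]
      rw [comm_proj_self hgz, ← mul_assoc, rho_mul_proj hz, smul_mul_assoc, map_smul, smul_eq_mul,
        ← comm_proj_self hgz] at htr
      by_contra h0
      exact hcv (mul_right_cancel₀ h0 (htr.trans (one_mul _).symm))
    rw [hF, pow_one, sq] at *
    exact Nat.mul_self_le_mul_self_iff.1 hcard
  have hb := degree_bound P ρ hd (fun x _ => norm_fibre_le hF x) z hz hlev
    ⟨_, rho_ne_one ρ hirr hk hnc⟩ hkm
  rwa [Module.finrank_pi, Fintype.card_fin, hF, ← pow_mul] at hb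

end Cfsg.Agent.Lib.MinDegForms
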