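import Cfsg.Agent.Lib.MinDegForms.SpOdd
import Mathlib.LinearAlgebra.Matrix.SchurComplement

/-!
The odd part of the Weil representation of the symplectic group over a field of odd order, obtained
from the action on the operator algebra spanned by the Heisenberg operators.
-/

set_option autoImplicit false

namespace Cfsg.Agent.Lib.MinDegForms.Weil

open Matrix Module

universe u

variable (F : Type u) [Field F] [Fintype F] [DecidableEq F] (n : ℕ)

/-- The matrices on functions on `F^n`. -/
abbrev Op : Type u := Matrix (Fin n → F) (Fin n → F) ℂ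

/-- Vectors of the symplectic space. -/
abbrev Vec : Type u := Fin n ⊕ Fin n → F

variable {F n}

/-- The Heisenberg operator. -/
noncomputable def piOp (ψ : AddChar F ℂ) (v : Vec F n) : Op F n :=
  Matrix.of fun x y => if y = x + v ∘ Sum.inl then
    ψ ((v ∘ Sum.inr) ⬝ᵥ x + 2⁻¹ * ((v ∘ Sum.inl) ⬝ᵥ (v ∘ Sum.inr))) else 0

/-- The symplectic form. -/
def omega (v w : Vec F n) : F := -(v ⬝ᵥ (Matrix.J (Fin n) F *ᵥ w))

omit [Fintype F] [DecidableEq F] in
theorem omega_eq (v w : Vec F n) :
    omega v w = (v ∘ Sum.inl) ⬝ᵥ (w ∘ Sum.inr) - (v ∘ Sum.inr) ⬝ᵥ (w ∘ Sum.inl) := by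
  simp [omega, Matrix.J, fromBlocks_mulVec, dotProduct, neg_mulVec]
  ring

variable {ψ : AddChar F ℂ} (h2 : (2 : F) ≠ 0)

include h2 in
theorem piOp_mul (v w : Vec F n) :
    piOp ψ v * piOp ψ w = ψ (2⁻¹ * omega v w) • piOp ψ (v + w) := by
  ext x z
  rw [Matrix.mul_apply, Finset.sum_eq_single (x + v ∘ Sum.inl)]
  · simp only [piOp, Matrix.of_apply, Matrix.smul_apply, if_true, smul_eq_mul]
    rw [show (v + w) ∘ Sum.inl = v ∘ Sum.inl + w ∘ Sum.inl from rfl,
      show (v + w) ∘ Sum.inr = v ∘ Sum.inr + w ∘ Sum.inr from rfl, ← add_assoc]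
    split_ifs with h
    · rw [← AddChar.map_add_eq_mul, ← AddChar.map_add_eq_mul, omega_eq]
      congr 1
      simp only [dotProduct_add, add_dotProduct]
      rw [dotProduct_comm (v ∘ Sum.inr) (w ∘ Sum.inl), dotProduct_comm (w ∘ Sum.inr) (v ∘ Sum.inl)]
      field_simp
      ring
    · simp
  · intro y _ hy
    simp [piOp, hy]
  · simp

omit h2 in
theorem piOp_zero : piOp ψ (0 : Vec F n) = 1 := by
  ext x y
  by_cases h : x = y
  · subst h; simp [piOp]
  · simp [piOp, Ne.symm h, h]

variable (hψ : ψ ≠ 1)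

include hψ in
theorem sum_dot (b : Fin n → F) :
    ∑ x : Fin n → F, ψ (b ⬝ᵥ x) = if b = 0 then (Fintype.card F : ℂ) ^ n else 0 := by
  split_ifs with h
  · subst h; simp
  · let φ : AddChar (Fin n → F) ℂ := ψ.compAddMonoidHom
      { toFun := fun x => b ⬝ᵥ x, map_zero' := dotProduct_zero _, map_add' := dotProduct_add _ }
    refine AddChar.sum_eq_zero_of_ne_one (ψ := φ) fun hφ => hψ (DFunLike.ext _ _ fun a => ?_)
    obtain ⟨i, hi⟩ := Function.ne_iff.1 h
    have := DFunLike.congr_fun hφ (Pi.single i (a / b i))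
    simpa [φ, mul_div_cancel₀ _ (show b i ≠ 0 from hi)] using this

include hψ in
theorem trace_piOp (v : Vec F n) :
    (piOp ψ v).trace = if v = 0 then (Fintype.card F : ℂ) ^ n else 0 := by
  simp only [Matrix.trace, Matrix.diag_apply, piOp, Matrix.of_apply, left_eq_add]
  by_cases ha : v ∘ Sum.inl = 0
  · simp only [ha, if_true, zero_dotProduct, mul_zero, add_zero, sum_dot hψ]
    refine if_congr ⟨fun hb => funext fun i => ?_, fun h => by subst h; rfl⟩ rfl rfl
    rcases i with i | i
    · exact congrFun ha i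
    · exact congrFun hb i
  · simp only [ha, if_false, Finset.sum_const_zero]
    rw [if_neg]
    rintro rfl
    exact ha rfl

include h2 hψ in
theorem piOp_linearIndependent : LinearIndependent ℂ (piOp ψ : Vec F n → Op F n) := by
  rw [Fintype.linearIndependent_iff]
  intro g hg w
  have := congrArg (fun M : Op F n => (piOp ψ (-w) * M).trace) hg
  simp only [Finset.mul_sum, Matrix.mul_smul, piOp_mul h2, trace_sum, trace_smul, trace_piOp hψ,
    Matrix.mul_zero, trace_zero, smul_eq_mul, mul_ite, mul_zero] at this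
  rw [Finset.sum_eq_single w (fun v _ hv => by rw [if_neg]; rwa [neg_add_eq_zero, eq_comm])
    (fun h => absurd (Finset.mem_univ _) h), if_pos (neg_add_cancel w), omega_eq] at this
  have e : ψ (2⁻¹ * ((-w) ∘ Sum.inl ⬝ᵥ w ∘ Sum.inr - (-w) ∘ Sum.inr ⬝ᵥ w ∘ Sum.inl)) = 1 := by
    rw [show (-w) ∘ Sum.inl = -(w ∘ Sum.inl) from rfl, show (-w) ∘ Sum.inr = -(w ∘ Sum.inr) from rfl,
      neg_dotProduct, neg_dotProduct, dotProduct_comm (w ∘ Sum.inr), sub_self, mul_zero,
      AddChar.map_zero_eq_one]
  rw [e, one_mul, mul_eq_zero] at this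
  exact this.resolve_right (pow_ne_zero _ (Nat.cast_ne_zero.2 Fintype.card_ne_zero))

include h2 hψ in
theorem exists_intertwiner (g : Matrix.symplecticGroup (Fin n) F) :
    ∃ U : Op F n, IsUnit U ∧ ∀ v : Vec F n,
      piOp ψ (g.1 *ᵥ v) * U = U * piOp ψ v := by
  classical
  have hcard : Fintype.card (Vec F n) = finrank ℂ (Op F n) := by
    rw [Module.finrank_matrix, Module.finrank_self, mul_one, Fintype.card_fun, Fintype.card_fun,
      Fintype.card_sum, Fintype.card_fin, pow_add]
  let B : Basis (Vec F n) ℂ (Op F n) :=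
    basisOfLinearIndependentOfCardEqFinrank (piOp_linearIndependent h2 hψ) hcard
  have hB : ∀ v, B v = piOp ψ v := fun v => by simp [B]
  let φ : Op F n →ₗ[ℂ] Op F n := B.constr ℂ fun v => piOp ψ (g.1 *ᵥ v)
  have hφ : ∀ v, φ (piOp ψ v) = piOp ψ (g.1 *ᵥ v) := fun v => by
    rw [← hB v, Basis.constr_basis]
  have hω : ∀ v w, omega (g.1 *ᵥ v) (g.1 *ᵥ w) = omega v w := fun v w => by
    rw [omega, omega]
    conv_lhs => rw [← vecMul_transpose, ← dotProduct_mulVec, mulVec_mulVec, mulVec_mulVec,
      SymplecticGroup.mem_iff'.1 g.2]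
  have hmulB : ∀ v w, φ (piOp ψ v * piOp ψ w) = φ (piOp ψ v) * φ (piOp ψ w) := fun v w => by
    rw [piOp_mul h2, map_smul, hφ, hφ, hφ, piOp_mul h2, hω, mulVec_add]
  have hmul : ∀ A C, φ (A * C) = φ A * φ C := by
    have e : (LinearMap.mul ℂ (Op F n)).compr₂ φ =
        (LinearMap.mul ℂ (Op F n)).compl₁₂ φ φ :=
      B.ext fun v => B.ext fun w => by simpa [hB] using hmulB v w
    intro A C
    exact LinearMap.congr_fun (LinearMap.congr_fun e A) C
  let x0 : Fin n → F := 0
  have hne : φ (Matrix.single x0 x0 1) ≠ 0 := by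
    intro h0
    have hall : ∀ A, φ A = 0 := fun A => by
      have : A = ∑ i, ∑ j, A i j • (Matrix.single i x0 (1 : ℂ) * Matrix.single x0 x0 1 * Matrix.single x0 j 1) := by
        conv_lhs => rw [matrix_eq_sum_single A]
        refine Finset.sum_congr rfl fun i _ => Finset.sum_congr rfl fun j _ => ?_
        simp [Matrix.smul_single]
      rw [this]
      simp only [map_sum, map_smul, hmul, h0, mul_zero, zero_mul, smul_zero, Finset.sum_const_zero]
    have := hall (piOp ψ 0)
    rw [hφ, mulVec_zero, piOp_zero] at this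
    exact one_ne_zero this
  obtain ⟨u0, hu0⟩ : ∃ u0, φ (Matrix.single x0 x0 1) *ᵥ u0 ≠ 0 := by
    by_contra hc
    push Not at hc
    exact hne (Matrix.ext_iff_mulVec.2 fun u => by rw [hc, zero_mulVec])
  let U : Op F n := Matrix.of fun x i => (φ (Matrix.single i x0 1) *ᵥ u0) x
  have hUv : ∀ c, U *ᵥ c = φ (∑ i, c i • Matrix.single i x0 (1 : ℂ)) *ᵥ u0 := fun c => by
    rw [map_sum, sum_mulVec]
    funext x
    simp only [map_smul, smul_mulVec, Finset.sum_apply, Pi.smul_apply, smul_eq_mul]
    simp [U, Matrix.mulVec, dotProduct, mul_comm]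
  have hint : ∀ A, φ A * U = U * A := fun A => by
    apply Matrix.ext_iff_mulVec.2
    intro c
    rw [← mulVec_mulVec, ← mulVec_mulVec, hUv, hUv, mulVec_mulVec, ← hmul, Finset.mul_sum]
    congr 2
    simp only [Matrix.mul_smul]
    calc ∑ i, c i • (A * Matrix.single i x0 (1 : ℂ))
        = ∑ i, ∑ x, (c i * A x i) • Matrix.single x x0 (1 : ℂ) := by
          refine Finset.sum_congr rfl fun i _ => ?_
          conv_lhs => rw [matrix_eq_sum_single (A * Matrix.single i x0 (1 : ℂ))]
          rw [Finset.smul_sum]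
          refine Finset.sum_congr rfl fun x _ => ?_
          rw [Finset.smul_sum, Finset.sum_eq_single x0]
          · simp [Matrix.smul_single]
          · intro y _ hy
            simp [Matrix.smul_single, hy]
          · simp
      _ = ∑ x, (A *ᵥ c) x • Matrix.single x x0 (1 : ℂ) := by
          rw [Finset.sum_comm]
          refine Finset.sum_congr rfl fun x _ => ?_
          rw [← Finset.sum_smul]
          simp [Matrix.mulVec, dotProduct, mul_comm]
  refine ⟨U, Matrix.mulVec_injective_iff_isUnit.1 fun c c' h => ?_, fun v => by rw [← hφ, hint]⟩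
  have h0 : U *ᵥ (c - c') = 0 := by rw [mulVec_sub, sub_eq_zero]; exact h
  funext j
  rw [← sub_eq_zero, ← Pi.sub_apply]
  have h1 : φ (Matrix.single x0 j 1) *ᵥ (U *ᵥ (c - c')) = 0 := by rw [h0, mulVec_zero]
  rw [hUv, mulVec_mulVec, ← hmul, Finset.mul_sum] at h1
  simp only [Matrix.mul_smul] at h1
  rw [Finset.sum_eq_single j (fun i _ hi => by simp [Ne.symm hi])
    (fun h => absurd (Finset.mem_univ _) h), Matrix.single_mul_single_same, mul_one, map_smul,
    smul_mulVec, smul_eq_zero] at h1
  exact h1.resolve_right hu0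

include h2 hψ in
theorem intertwiner_unique {U U' : Op F n} (g : Matrix.symplecticGroup (Fin n) F) (hU : IsUnit U)
    (h : ∀ v : Vec F n, piOp ψ (g.1 *ᵥ v) * U = U * piOp ψ v)
    (h' : ∀ v : Vec F n, piOp ψ (g.1 *ᵥ v) * U' = U' * piOp ψ v) :
    ∃ c : ℂ, U' = c • U := by
  classical
  obtain ⟨W, rfl⟩ := hU
  have hc : ∀ v, Commute (piOp ψ v) ((↑W⁻¹ : Op F n) * U') := fun v => by
    have e : (↑W⁻¹ : Op F n) * piOp ψ (g.1 *ᵥ v) = piOp ψ v * (↑W⁻¹ : Op F n) := by
      rw [Units.inv_mul_eq_iff_eq_mul, ← mul_assoc, ← h v, mul_assoc, Units.mul_inv, mul_one]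
    rw [Commute, SemiconjBy, ← mul_assoc, ← e, mul_assoc, h' v, mul_assoc]
  have hall : ∀ A : Op F n, Commute A ((↑W⁻¹ : Op F n) * U') := by
    intro A
    have hA : A ∈ Submodule.span ℂ (Set.range (piOp ψ : Vec F n → Op F n)) := by
      rw [(piOp_linearIndependent h2 hψ).span_eq_top_of_card_eq_finrank (by
        rw [Module.finrank_matrix, Module.finrank_self, mul_one, Fintype.card_fun, Fintype.card_fun,
          Fintype.card_sum, Fintype.card_fin, pow_add])]
      trivial
    induction hA using Submodule.span_induction with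
    | mem x hx => obtain ⟨v, rfl⟩ := hx; exact hc v
    | zero => exact Commute.zero_left _
    | add x y _ _ hx hy => exact hx.add_left hy
    | smul a x _ hx => exact hx.smul_left a
  obtain ⟨c, hc'⟩ := Matrix.mem_range_scalar_of_commute_single fun i j _ => hall (Matrix.single i j 1)
  refine ⟨c, ?_⟩
  have : (↑W : Op F n) * ((↑W⁻¹ : Op F n) * U') = (↑W : Op F n) * Matrix.scalar _ c := by rw [hc']
  rw [← mul_assoc, Units.mul_inv, one_mul, scalar_apply, ← smul_one_eq_diagonal, Matrix.mul_smul,
    mul_one] at this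
  exact this

/-- The parity operator. -/
def parity : Op F n := Matrix.of fun x y => if y = -x then 1 else 0

include h2 hψ in
theorem sum_piOp : ∑ v : Vec F n, piOp ψ v = ((Fintype.card F : ℂ) ^ n) • (parity : Op F n) := by
  classical
  ext x y
  rw [Matrix.sum_apply, ← (Equiv.sumArrowEquivProdArrow (Fin n) (Fin n) F).symm.sum_comp,
    Fintype.sum_prod_type, Finset.sum_eq_single (y - x)]
  · have e : ∀ b : Fin n → F,
        piOp ψ ((Equiv.sumArrowEquivProdArrow (Fin n) (Fin n) F).symm (y - x, b)) x y =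
          ψ ((2⁻¹ : F) • (x + y) ⬝ᵥ b) := fun b => by
      simp only [piOp, Matrix.of_apply]
      rw [if_pos]
      · congr 1
        change b ⬝ᵥ x + 2⁻¹ * ((y - x) ⬝ᵥ b) = _
        rw [smul_dotProduct, add_dotProduct, sub_dotProduct, dotProduct_comm b x, smul_eq_mul]
        field_simp
        ring
      · change y = x + (y - x); abel
    rw [Finset.sum_congr rfl fun b _ => e b, sum_dot hψ]
    simp only [parity, Matrix.smul_apply, Matrix.of_apply, smul_eq_mul, mul_ite, mul_one, mul_zero]
    refine if_congr ?_ rfl rfl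
    rw [smul_eq_zero, or_iff_right (inv_ne_zero h2), add_comm, add_eq_zero_iff_eq_neg]
  · intro a _ ha
    refine Finset.sum_eq_zero fun b _ => ?_
    simp only [piOp, Matrix.of_apply]
    rw [if_neg]
    intro h
    exact ha (eq_sub_of_add_eq' h.symm)
  · simp

theorem parity_mul_self : (parity : Op F n) * parity = 1 := by
  ext x z
  rw [Matrix.mul_apply, Finset.sum_eq_single (-x)]
  · simp [parity, Matrix.one_apply, eq_comm]
  · intro y _ hy; simp [parity, hy]
  · simp

include h2 in
theorem trace_parity : (parity : Op F n).trace = 1 := by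
  simp only [Matrix.trace, Matrix.diag_apply, parity, Matrix.of_apply]
  rw [Finset.sum_eq_single 0]
  · simp
  · intro x _ hx
    rw [if_neg]
    intro h
    apply hx
    have : (2 : F) • x = 0 := by rw [two_smul]; nth_rewrite 1 [h]; exact neg_add_cancel x
    exact (smul_eq_zero.1 this).resolve_left h2
  · simp

include h2 hψ in
theorem parity_commute {U : Op F n} (g : Matrix.symplecticGroup (Fin n) F)
    (h : ∀ v : Vec F n, piOp ψ (g.1 *ᵥ v) * U = U * piOp ψ v) :
    parity * U = U * parity := by
  have hdet : IsUnit (g : Matrix (Fin n ⊕ Fin n) (Fin n ⊕ Fin n) F) :=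
    (Matrix.isUnit_iff_isUnit_det _).2 (SymplecticGroup.symplectic_det g.2)
  have hbij : Function.Bijective (fun v : Vec F n => g.1 *ᵥ v) :=
    ⟨Matrix.mulVec_injective_iff_isUnit.2 hdet,
      Finite.surjective_of_injective (Matrix.mulVec_injective_iff_isUnit.2 hdet)⟩
  have e : (∑ v : Vec F n, piOp ψ v) * U = U * ∑ v : Vec F n, piOp ψ v := by
    rw [Finset.mul_sum, Finset.sum_mul, ← hbij.sum_comp (fun v => piOp ψ v * U)]
    exact Finset.sum_congr rfl fun v _ => h v
  rw [sum_piOp h2 hψ, smul_mul_assoc, mul_smul_comm] at e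
  exact smul_right_injective _ (pow_ne_zero _ (Nat.cast_ne_zero.2 Fintype.card_ne_zero)) e

/-- An eigenspace of the parity operator. -/
noncomputable def half (F : Type u) [Field F] [Fintype F] [DecidableEq F] (n : ℕ) (s : ℂ) :
    Submodule ℂ ((Fin n → F) → ℂ) :=
  LinearMap.ker ((parity : Op F n).mulVecLin - s • 1)

theorem mem_half {s : ℂ} {f : (Fin n → F) → ℂ} :
    f ∈ half F n s ↔ (parity : Op F n) *ᵥ f = s • f := by
  simp [half, sub_eq_zero]

include h2 in
theorem finrank_half {s : ℂ} (hs : s * s = 1) :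
    2 * (finrank ℂ (half F n s) : ℂ) = (Fintype.card F : ℂ) ^ n + s := by
  let E : Op F n := (2⁻¹ : ℂ) • (1 + s • parity)
  have hp : LinearMap.IsProj (half F n s) E.mulVecLin := by
    refine ⟨fun f => mem_half.2 ?_, fun f hf => ?_⟩
    · simp only [E, mulVecLin_apply, smul_mulVec, add_mulVec, one_mulVec, mulVec_smul, mulVec_add,
        mulVec_mulVec, parity_mul_self, smul_add, smul_smul]
      rw [show s * (2⁻¹ * s) = (2⁻¹ : ℂ) by linear_combination (2⁻¹ : ℂ) * hs]
      module
    · simp only [E, mulVecLin_apply, smul_mulVec, add_mulVec, one_mulVec, mem_half.1 hf, smul_smul, hs]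
      module
  rw [← hp.trace, ← Matrix.toLin'_apply', Matrix.trace_toLin'_eq]
  simp [E, trace_add, trace_parity h2, Fintype.card_fun]
  ring

/-- The restriction to an eigenspace of parity. -/
noncomputable def res (U : Op F n) (h : parity * U = U * parity) (s : ℂ) :
    Module.End ℂ (half F n s) :=
  U.mulVecLin.restrict fun f hf => mem_half.2 (by
    rw [mulVecLin_apply, mulVec_mulVec, h, ← mulVec_mulVec, mem_half.1 hf, mulVec_smul])

theorem res_apply (U : Op F n) (h : parity * U = U * parity) (s : ℂ) (f : half F n s) :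
    ((res U h s f : half F n s) : (Fin n → F) → ℂ) = U *ᵥ (f : (Fin n → F) → ℂ) := rfl

theorem res_mul {U V : Op F n} (hU : parity * U = U * parity) (hV : parity * V = V * parity)
    (hUV : parity * (U * V) = U * V * parity) (s : ℂ) :
    res (U * V) hUV s = res U hU s * res V hV s := by
  apply LinearMap.ext; intro f; apply Subtype.ext
  simp [res_apply, mulVec_mulVec]

theorem res_smul {U : Op F n} (hU : parity * U = U * parity) (c : ℂ)
    (hcU : parity * (c • U) = c • U * parity) (s : ℂ) : res (c • U) hcU s = c • res U hU s := by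
  apply LinearMap.ext; intro f; apply Subtype.ext
  simp [res_apply, smul_mulVec]

/-- The ratio of the determinants on the two parity eigenspaces. -/
noncomputable def chi (U : Op F n) (h : parity * U = U * parity) : ℂ :=
  LinearMap.det (res U h 1) / LinearMap.det (res U h (-1))

theorem det_res_ne_zero {U : Op F n} (hU : IsUnit U) (h : parity * U = U * parity) (s : ℂ) :
    LinearMap.det (res U h s) ≠ 0 := by
  intro h0
  have hinj : Function.Injective (res U h s) := fun f f' e => by
    have := congrArg Subtype.val e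
    rw [res_apply, res_apply] at this
    exact Subtype.ext (Matrix.mulVec_injective_iff_isUnit.2 hU this)
  exact (LinearMap.bot_lt_ker_of_det_eq_zero h0).ne' (LinearMap.ker_eq_bot.2 hinj)

theorem chi_mul {U V : Op F n} (hU : parity * U = U * parity) (hV : parity * V = V * parity)
    (hUV : parity * (U * V) = U * V * parity) : chi (U * V) hUV = chi U hU * chi V hV := by
  rw [chi, chi, chi, res_mul hU hV, res_mul hU hV, map_mul, map_mul, mul_div_mul_comm]

include h2 in
theorem chi_smul {U : Op F n} (hU : parity * U = U * parity) {c : ℂ} (hc : c ≠ 0)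
    (hcU : parity * (c • U) = c • U * parity) : chi (c • U) hcU = c * chi U hU := by
  have h1 := finrank_half (F := F) (n := n) h2 (s := 1) (one_mul 1)
  have h3 := finrank_half (F := F) (n := n) h2 (s := -1) (by ring)
  have : finrank ℂ (half F n (1 : ℂ)) = finrank ℂ (half F n (-1 : ℂ)) + 1 := by
    have : (2 : ℂ) * (finrank ℂ (half F n (1 : ℂ)) : ℂ) =
        2 * ((finrank ℂ (half F n (-1 : ℂ)) + 1 : ℕ) : ℂ) := by
      push_cast
      linear_combination h1 - h3
    exact_mod_cast mul_left_cancel₀ (two_ne_zero (α := ℂ)) this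
  rw [chi, chi, res_smul hU, res_smul hU, LinearMap.det_smul, LinearMap.det_smul, this, pow_succ']
  field_simp

include h2 hψ in
theorem exists_weil :
    ∃ W : Matrix.symplecticGroup (Fin n) F →* Op F n,
      (∀ g, parity * W g = W g * parity) ∧
      ∀ (g : Matrix.symplecticGroup (Fin n) F) (v : Vec F n), piOp ψ (g.1 *ᵥ v) * W g = W g * piOp ψ v := by
  choose U hU hint using fun g : Matrix.symplecticGroup (Fin n) F => exists_intertwiner h2 hψ g
  have hpar : ∀ g, parity * U g = U g * parity := fun g => parity_commute h2 hψ g (hint g)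
  let W : Matrix.symplecticGroup (Fin n) F → Op F n := fun g => (chi (U g) (hpar g))⁻¹ • U g
  have hWint : ∀ (g : Matrix.symplecticGroup (Fin n) F) (v : Vec F n), piOp ψ (g.1 *ᵥ v) * W g = W g * piOp ψ v := fun g v => by
    rw [mul_smul_comm, hint, smul_mul_assoc]
  have hWpar : ∀ g, parity * W g = W g * parity := fun g => parity_commute h2 hψ g (hWint g)
  have hchi0 : ∀ g, chi (U g) (hpar g) ≠ 0 := fun g =>
    div_ne_zero (det_res_ne_zero (hU g) _ _) (det_res_ne_zero (hU g) _ _)
  have hWchi : ∀ g, chi (W g) (hWpar g) = 1 := fun g => by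
    rw [chi_smul h2 (hpar g) (inv_ne_zero (hchi0 g)), inv_mul_cancel₀ (hchi0 g)]
  have key : ∀ (g : Matrix.symplecticGroup (Fin n) F) (V : Op F n), (∀ v : Vec F n, piOp ψ (g.1 *ᵥ v) * V = V * piOp ψ v) →
      (hV : parity * V = V * parity) → chi V hV = 1 → V = W g := by
    intro g V hVint hV hV1
    obtain ⟨c, rfl⟩ := intertwiner_unique h2 hψ g (hU g) (hint g) hVint
    have hc : c ≠ 0 := by
      rintro rfl
      have h0 : (0 : ℂ) • U g = 0 := zero_smul _ _
      rw [chi, res_smul (hpar g), res_smul (hpar g), LinearMap.det_smul, LinearMap.det_smul] at hV1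
      by_cases hz : finrank ℂ (half F n (1 : ℂ)) = 0
      · have := finrank_half (F := F) (n := n) h2 (s := 1) (one_mul 1)
        rw [hz] at this
        have hh : ((Fintype.card F ^ n + 1 : ℕ) : ℂ) = 0 := by push_cast; linear_combination -this
        exact absurd (Nat.cast_eq_zero.1 hh) (by omega)
      · simp [zero_pow hz] at hV1
    rw [chi_smul h2 (hpar g) hc] at hV1
    simp only [W]
    rw [eq_inv_of_mul_eq_one_left hV1]
  have hone : W 1 = 1 := by
    refine (key 1 1 (fun v => by simp) (by simp) ?_).symm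
    have h1 : ∀ s, res (1 : Op F n) (by simp) s = 1 := fun s => by
      apply LinearMap.ext; intro f; apply Subtype.ext; simp [res_apply]
    rw [chi, h1, h1, map_one, map_one, div_one]
  have hmul : ∀ g h, W (g * h) = W g * W h := fun g h => by
    refine (key (g * h) (W g * W h) (fun v => ?_) ?_ ?_).symm
    · rw [Submonoid.coe_mul, ← mulVec_mulVec, ← mul_assoc, hWint, mul_assoc, hWint, mul_assoc]
    · rw [← mul_assoc, hWpar, mul_assoc, hWpar, mul_assoc]
    · rw [chi_mul (hWpar g) (hWpar h), hWchi, hWchi, one_mul]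
  exact ⟨⟨⟨W, hone⟩, hmul⟩, hWpar, hWint⟩

include h2 hψ in
theorem exists_odd_rep :
    ∃ σ : Representation ℂ (Matrix.symplecticGroup (Fin n) F) (half F n (-1 : ℂ)),
      2 ≤ n → ∃ g, σ g ≠ 1 := by
  obtain ⟨W, hpar, hint⟩ := exists_weil (n := n) h2 hψ
  refine ⟨{ toFun := fun g => res (W g) (hpar g) (-1)
            map_one' := ?_
            map_mul' := fun g h => ?_ }, fun hn => ?_⟩
  · apply LinearMap.ext; intro f; apply Subtype.ext; simp [res_apply]
  · apply LinearMap.ext; intro f; apply Subtype.ext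
    simp [res_apply, map_mul, mulVec_mulVec]
  by_contra hc
  push Not at hc
  set E : Op F n := 1 - parity with hE
  have hfix : ∀ g, W g * E = E ∧ E * W g = E := by
    intro g
    have h1 : W g * E = E := Matrix.ext_iff_mulVec.2 fun f => by
      have hf : E *ᵥ f ∈ half F n (-1 : ℂ) := mem_half.2 (by
        rw [hE, sub_mulVec, one_mulVec, mulVec_sub, mulVec_mulVec, parity_mul_self, one_mulVec]
        module)
      have := congrArg Subtype.val (LinearMap.congr_fun (hc g) ⟨_, hf⟩)
      rw [← mulVec_mulVec]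
      exact this
    refine ⟨h1, ?_⟩
    rw [hE, sub_mul, one_mul, hpar, ← hE]
    rw [hE, mul_sub, mul_one] at h1
    exact h1
  let i : Fin n := ⟨0, by omega⟩
  let j : Fin n := ⟨1, by omega⟩
  set e : Fin n → F := Pi.single i 1 with he
  set x : Fin n → F := Pi.single j 1 with hx
  let v : Vec F n := Sum.elim 0 (-e)
  have hJ : (⟨Matrix.J (Fin n) F, SymplecticGroup.J_mem _ _⟩ : Matrix.symplecticGroup (Fin n) F).1 *ᵥ v =
      Sum.elim e 0 := by
    simp [v, Matrix.J, fromBlocks_mulVec, neg_mulVec]
  have hEq := hfix ⟨Matrix.J (Fin n) F, SymplecticGroup.J_mem _ _⟩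
  have hcomp : E * piOp ψ (Sum.elim e 0) * E = E * piOp ψ v * E := by
    calc E * piOp ψ (Sum.elim e 0) * E
        = E * (piOp ψ (Sum.elim e 0) * (W ⟨Matrix.J (Fin n) F, SymplecticGroup.J_mem _ _⟩ * E)) := by
          rw [hEq.1, mul_assoc]
      _ = (E * W ⟨Matrix.J (Fin n) F, SymplecticGroup.J_mem _ _⟩) * piOp ψ v * E := by
          rw [← hJ]
          simp only [← mul_assoc]
          rw [mul_assoc E, hint ⟨Matrix.J (Fin n) F, SymplecticGroup.J_mem _ _⟩ v, ← mul_assoc]
      _ = E * piOp ψ v * E := by rw [hEq.2]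
  have hent : ∀ (M : Op F n) (a b : Fin n → F),
      (E * M * E) a b = M a b - M (-a) b - M a (-b) + M (-a) (-b) := fun M a b => by
    have hl : ∀ (M : Op F n) a b, ((parity : Op F n) * M) a b = M (-a) b := fun M a b => by
      rw [Matrix.mul_apply, Finset.sum_eq_single (-a)] <;> simp +contextual [parity]
    have hr : ∀ (M : Op F n) a b, (M * (parity : Op F n)) a b = M a (-b) := fun M a b => by
      rw [Matrix.mul_apply, Finset.sum_eq_single (-b)]
      · simp [parity]
      · intro y _ hy
        simp only [parity, Matrix.of_apply]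
        rw [if_neg (fun h : b = -y => hy (by rw [h, neg_neg])), mul_zero]
      · simp
    simp only [hE, sub_mul, mul_sub, one_mul, mul_one, Matrix.sub_apply, hl, hr]
    ring
  have := congrFun (congrFun hcomp x) (x + e)
  rw [hent, hent] at this
  have hij : i ≠ j := by simp [i, j, Fin.ext_iff]
  have hx2 : x + x ≠ 0 := fun h => by
    have := congrFun h j
    simp [hx, ← two_mul, h2] at this
  have he0 : e ≠ 0 := by simp [he]
  have c1 : x + e ≠ -x + e := fun h => hx2 (by
    have := add_right_cancel h; nth_rewrite 1 [this]; exact neg_add_cancel x)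
  have c2 : -(x + e) ≠ x + e := fun h => by
    have := congrFun h j
    simp [hx, he, hij, hij.symm] at this
    exact h2 (by linear_combination -this)
  have c3 : -(x + e) ≠ -x + e := fun h => by
    have := congrFun h i
    simp [hx, he, hij] at this
    exact h2 (by linear_combination -this)
  have d1 : x + e ≠ x := by simpa using he0
  have d2 : x + e ≠ -x := fun h => by
    have := congrFun h j
    simp [hx, he, hij.symm] at this
    exact h2 (by linear_combination this)
  have d3 : -(x + e) ≠ x := fun h => d2 (neg_eq_iff_eq_neg.1 h)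
  have d4 : -(x + e) ≠ -x := fun h => d1 (neg_injective h)
  rw [neg_add_rev] at c2 c3 d3 d4
  simp [piOp, v, c1, c2, c3, d1, d2, d3, d4, he0] at this

end Cfsg.Agent.Lib.MinDegForms.Weil
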